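import Groth.Agent.Gaga.H977.CanTop
import Groth.Agent.CohtopA.PushCan
import Groth.Agent.VarietyB.RpushAffVan

/-!
# `canT` is bijective for locally acyclic sheaves

`LocAcyc f F`: for `q ≥ 1` every class in `H^q(f⁻¹ V, F)` is zero locally on `V`.
`canT_bijective`: then `H^n(Y, f_* F) → H^n(X, F)` is bijective.
-/

set_option autoImplicit false

noncomputable section

universe u

open CategoryTheory CategoryTheory.Limits CategoryTheory.Abelian TopologicalSpace Opposite

namespace Groth.Agent.Gaga.H977.CanAcyc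

open Groth.Agent.Gaga.H977.CmpComp Groth.Agent.Gaga.H977.CanTop
  Groth.Agent.CohtopA.PushClosed Groth.Agent.CohtopB.TopPull

variable {X Y Z : TopCat.{u}}

/-- Every class in `H^(q+1)(f⁻¹ V, F)` vanishes locally on `V`. -/
def LocAcyc (f : X ⟶ Y) (F : CohTop.Ab X) : Prop :=
  ∀ (q : ℕ) (V : Opens Y) (a : CohTop.HU F (q + 1) ((Opens.map f).obj V)) (y : Y), y ∈ V →
    ∃ (W : Opens Y) (h : W ≤ V), y ∈ W ∧
      CohTop.res F (q + 1) (U := (Opens.map f).obj V) (V := (Opens.map f).obj W)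
        (fun _ hx => h hx) a = 0

theorem isZero_Rpush (f : X ⟶ Y) (F : CohTop.Ab X) (hF : LocAcyc f F) (q : ℕ) :
    IsZero ((CohTop.Rpush f (q + 1)).obj F) := by
  refine IsZero.of_iso (Groth.Agent.VarietyB.RpushAffVan.isZero_presheafToSheaf
    (Opens.grothendieckTopology Y)
    ((Opens.map f).op ⋙ F.cohomologyPresheaf (q + 1)) ?_)
    (CohtopA.RpushSheafify.rpushObjIso (Opens.grothendieckTopology X)
      (Opens.grothendieckTopology Y) (Opens.map f) F (q + 1))
  intro U s
  refine ⟨⟨fun V g => ((Opens.map f).op ⋙ F.cohomologyPresheaf (q + 1)).map g.op s = 0, ?_⟩, ?_,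
    fun V g hg => hg⟩
  · intro V W g hg k
    rw [op_comp, Functor.map_comp, ConcreteCategory.comp_apply, hg, map_zero]
  · intro y hy
    obtain ⟨W, h, hyW, hW⟩ := hF q U s y hy
    exact ⟨W, homOfLE h, hW, hyW⟩

section general

universe w w' v v' u₁ u'

variable {A : Type u₁} [Category.{v} A] [Abelian A] {B : Type u'} [Category.{v'} B] [Abelian B]
  [HasExt.{w} A] [HasExt.{w'} B] {L : B ⥤ A} {R : A ⥤ B} (adj : L ⊣ R) [L.Additive]
  [PreservesFiniteLimits L] [PreservesFiniteColimits L] [R.Additive] [EnoughInjectives A]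

omit [EnoughInjectives A] in
lemma precomp_bijective {P Q : A} (a : P ⟶ Q) [IsIso a] (F : A) (n : ℕ) :
    Function.Bijective (fun x : Ext.{w} Q F n => (Ext.mk₀ a).comp x (zero_add n)) := by
  refine Function.bijective_iff_has_inverse.2
    ⟨fun x => (Ext.mk₀ (inv a)).comp x (zero_add n), fun x => ?_, fun x => ?_⟩
  · change (Ext.mk₀ (inv a)).comp ((Ext.mk₀ a).comp x (zero_add n)) (zero_add n) = x
    rw [← Ext.comp_assoc_of_second_deg_zero, Ext.mk₀_comp_mk₀, IsIso.inv_hom_id,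
      Ext.mk₀_id_comp]
  · change (Ext.mk₀ a).comp ((Ext.mk₀ (inv a)).comp x (zero_add n)) (zero_add n) = x
    rw [← Ext.comp_assoc_of_second_deg_zero, Ext.mk₀_comp_mk₀, IsIso.hom_inv_id,
      Ext.mk₀_id_comp]

theorem can_bijective {ZA : A} {ZB : B} (k : ZB ⟶ R.obj ZA)
    (hk : IsIso ((adj.homEquiv _ _).symm k)) (F : A)
    (h : ∀ q : ℕ, IsZero ((R.rightDerived (q + 1)).obj F)) (n : ℕ) :
    Function.Bijective (can adj k hk (𝟙 (R.obj F)) n) := by
  have h1 := Groth.Agent.CohtopA.PushCan.extAdj_bijective adj ZB F h n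
  have h2 := precomp_bijective (A := A) (@inv _ _ _ _ _ hk) F n
  have h3 : ⇑(can adj k hk (𝟙 (R.obj F)) n) =
      (fun x : Ext.{w} (L.obj ZB) F n => (Ext.mk₀ (@inv _ _ _ _ _ hk)).comp x (zero_add n)) ∘
        ⇑(Groth.Agent.CohtopA.ExtAdj.extAdj adj ZB F n) := by
    funext e
    have h4 : (adj.homEquiv (R.obj F) F).symm (𝟙 (R.obj F)) = adj.counit.app F := by
      rw [Adjunction.homEquiv_counit, CategoryTheory.Functor.map_id, Category.id_comp]
    unfold can
    rw [ExtCmp.cmp_apply, Function.comp_apply, Groth.Agent.CohtopA.ExtAdj.extAdj_apply, h4,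
      Ext.comp_assoc_of_third_deg_zero]
  rw [h3]
  exact h2.comp h1

end general

/-- The canonical map `H^n(Y, f_* F) → H^n(X, F)` is bijective for `F` locally acyclic. -/
theorem canT_bijective (f : X ⟶ Y) (F : CohTop.Ab X) (hF : LocAcyc f F) (n : ℕ) :
    Function.Bijective (canT f (𝟙 ((CohTop.push f).obj F)) n) :=
  can_bijective (adj f) (constHom f) (inferInstanceAs (IsIso (pullConst f))) F
    (isZero_Rpush f F hF) n

/-- Precomposition. -/
lemma canT_precomp (f : X ⟶ Y) {F : CohTop.Ab X} {G G' : CohTop.Ab Y}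
    (u : G ⟶ (CohTop.push f).obj F) (g : G' ⟶ G) (n : ℕ) (e : CohTop.H G' n) :
    canT f u n (Ext.comp e (Ext.mk₀ g) (add_zero n)) = canT f (g ≫ u) n e :=
  can_precomp (adj f) (constHom f) (inferInstanceAs (IsIso (pullConst f))) u g n e

/-- Postcomposition. -/
lemma canT_postcomp (f : X ⟶ Y) {F F' : CohTop.Ab X} {G : CohTop.Ab Y}
    (u : G ⟶ (CohTop.push f).obj F) (g : F ⟶ F') (n : ℕ) (e : CohTop.H G n) :
    Ext.comp (canT f u n e) (Ext.mk₀ g) (add_zero n) = canT f (u ≫ (CohTop.push f).map g) n e :=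
  can_postcomp (adj f) (constHom f) (inferInstanceAs (IsIso (pullConst f))) u g n e

lemma postcomp_bijective {G G' : CohTop.Ab X} (g : G ⟶ G') [IsIso g] (n : ℕ) :
    Function.Bijective (fun e : CohTop.H G n => (Ext.comp e (Ext.mk₀ g) (add_zero n) : CohTop.H G' n)) := by
  refine Function.bijective_iff_has_inverse.2
    ⟨fun x => Ext.comp x (Ext.mk₀ (inv g)) (add_zero n), fun x => ?_, fun x => ?_⟩
  · change Ext.comp (Ext.comp x (Ext.mk₀ g) (add_zero n)) (Ext.mk₀ (inv g)) (add_zero n) = x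
    rw [Ext.comp_assoc_of_third_deg_zero, Ext.mk₀_comp_mk₀, IsIso.hom_inv_id]
    exact Ext.comp_mk₀_id x
  · change Ext.comp (Ext.comp x (Ext.mk₀ (inv g)) (add_zero n)) (Ext.mk₀ g) (add_zero n) = x
    rw [Ext.comp_assoc_of_third_deg_zero, Ext.mk₀_comp_mk₀, IsIso.inv_hom_id]
    exact Ext.comp_mk₀_id x

/-- `canT f u` is bijective for `F` locally acyclic and `u : G ⟶ f_* F` an isomorphism. -/
theorem canT_bijective_of_isIso (f : X ⟶ Y) {F : CohTop.Ab X} {G : CohTop.Ab Y}
    (u : G ⟶ (CohTop.push f).obj F) [IsIso u] (hF : LocAcyc f F) (n : ℕ) :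
    Function.Bijective (canT f u n) := by
  have h1 : ⇑(canT f u n) = ⇑(canT f (𝟙 ((CohTop.push f).obj F)) n) ∘
      (fun e : CohTop.H G n => (Ext.comp e (Ext.mk₀ u) (add_zero n) : CohTop.H _ n)) := by
    funext e
    rw [Function.comp_apply, canT_precomp, Category.comp_id]
  rw [h1]
  exact (canT_bijective f F hF n).comp (postcomp_bijective u n)

end Groth.Agent.Gaga.H977.CanAcyc
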