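import Groth.Agent.Gaga.H977.CmpComp
import Groth.Agent.CohtopA.PushClosed
import Mathlib.CategoryTheory.Abelian.GrothendieckCategory.EnoughInjectives

/-!
# The canonical map `H^n(Y, G) → H^n(X, F)` for `f : X ⟶ Y` continuous and `u : G ⟶ f_* F`

`canT f u n`; `canT_comp`: compatibility with composition of continuous maps.
-/

set_option autoImplicit false

noncomputable section

universe u

open CategoryTheory CategoryTheory.Limits CategoryTheory.Abelian TopologicalSpace Opposite

namespace Groth.Agent.Gaga.H977.CanTop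

open Groth.Agent.Gaga.H977.CmpComp Groth.Agent.CohtopA.PushClosed Groth.Agent.CohtopB.TopPull

variable {X Y Z : TopCat.{u}}

/-- The canonical map `H^n(Y, G) → H^n(X, F)` attached to `f : X ⟶ Y` and `u : G ⟶ f_* F`. -/
def canT (f : X ⟶ Y) {F : CohTop.Ab X} {G : CohTop.Ab Y} (u : G ⟶ (CohTop.push f).obj F) (n : ℕ) :
    CohTop.H G n →+ CohTop.H F n :=
  can (adj f) (constHom f) (inferInstanceAs (IsIso (pullConst f))) u n

lemma constHom_comp (f : X ⟶ Y) (g : Y ⟶ Z) :
    constHom g ≫ (CohTop.push g).map (constHom f) = constHom (f ≫ g) := by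
  apply (homZZ _).injective
  have h1 := homZZ_constHom_comp g (constHom f)
  have h2 : homZZ ((CohTop.push f).obj (ZZ X)) (constHom f) = homZZ (ZZ X) (𝟙 _) :=
    Equiv.apply_symm_apply _ _
  have h3 : homZZ ((CohTop.push (f ≫ g)).obj (ZZ X)) (constHom (f ≫ g)) = homZZ (ZZ X) (𝟙 _) :=
    Equiv.apply_symm_apply _ _
  exact h1.trans (h2.trans h3.symm)

/-- `f_*` followed by `g_*` is `(f ≫ g)_*`. -/
def pushCompHom (f : X ⟶ Y) (g : Y ⟶ Z) : CohTop.push f ⋙ CohTop.push g ⟶ CohTop.push (f ≫ g) :=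
  𝟙 (CohTop.push (f ≫ g))

lemma pushCompHom_app (f : X ⟶ Y) (g : Y ⟶ Z) (F : CohTop.Ab X) :
    (pushCompHom f g).app F = 𝟙 ((CohTop.push (f ≫ g)).obj F) := rfl

theorem canT_comp (f : X ⟶ Y) (g : Y ⟶ Z) {F : CohTop.Ab X} {G : CohTop.Ab Y} {K : CohTop.Ab Z}
    (u₁ : G ⟶ (CohTop.push f).obj F) (u₂ : K ⟶ (CohTop.push g).obj G) (n : ℕ) (e : CohTop.H K n) :
    canT f u₁ n (canT g u₂ n e) =
      canT (f ≫ g) (F := F) (G := K) (u₂ ≫ (CohTop.push g).map u₁) n e := by
  have i1 : (CohTop.pull g ⋙ CohTop.pull f).Additive := inferInstance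
  have i2 : PreservesFiniteLimits (CohTop.pull g ⋙ CohTop.pull f) :=
    comp_preservesFiniteLimits _ _
  have i3 : PreservesFiniteColimits (CohTop.pull g ⋙ CohTop.pull f) :=
    comp_preservesFiniteColimits _ _
  have hk : IsIso ((((adj g).comp (adj f)).homEquiv (ZZ Z) (ZZ X)).symm
      (constHom g ≫ (CohTop.push g).map (constHom f))) := by
    rw [homEquiv_comp_symm]
    have : IsIso (((adj g).homEquiv (ZZ Z) (ZZ Y)).symm (constHom g)) :=
      inferInstanceAs (IsIso (pullConst g))
    have : IsIso (((adj f).homEquiv (ZZ Y) (ZZ X)).symm (constHom f)) :=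
      inferInstanceAs (IsIso (pullConst f))
    infer_instance
  have h1 := can_can (adj f) (adj g) (constHom f) (inferInstanceAs (IsIso (pullConst f)))
    (constHom g) (inferInstanceAs (IsIso (pullConst g))) hk u₁ u₂ n e
  refine h1.trans ?_
  have hk' : IsIso (((adj (f ≫ g)).homEquiv (ZZ Z) (ZZ X)).symm
      ((constHom g ≫ (CohTop.push g).map (constHom f)) ≫ (pushCompHom f g).app (ZZ X))) := by
    have : (constHom g ≫ (CohTop.push g).map (constHom f)) ≫ (pushCompHom f g).app (ZZ X) =
        constHom (f ≫ g) := by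
      rw [pushCompHom_app]
      exact (Category.comp_id _).trans (constHom_comp f g)
    rw [this]
    exact inferInstanceAs (IsIso (pullConst (f ≫ g)))
  refine (can_congr ((adj g).comp (adj f)) (adj (f ≫ g)) (pushCompHom f g)
    (constHom g ≫ (CohTop.push g).map (constHom f)) hk hk' (u₂ ≫ (CohTop.push g).map u₁) n e).symm.trans ?_
  apply can_eq
  · rw [pushCompHom_app]
    exact (Category.comp_id _).trans (constHom_comp f g)
  · rw [pushCompHom_app]
    exact Category.comp_id _

end Groth.Agent.Gaga.H977.CanTop
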