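import Groth.Agent.Gaga.H977.ExtCmp
import Groth.Agent.Etcore.ExtAdj
import Mathlib.CategoryTheory.Adjunction.Basic
import Mathlib.CategoryTheory.Adjunction.Unique

/-!
# Composition of comparison maps, and comparison maps attached to adjunctions

* `cmp_cmp`: composition of two comparison maps is the comparison map of the composite functor.
* `cmp_natTrans`: change of functor along a natural transformation.
* `can adj k hk u n : Ext Z_B G n →+ Ext Z_A F n` for `L ⊣ R`, `k : Z_B ⟶ R Z_A` whose adjoint is an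
  isomorphism, `u : G ⟶ R F`; `can_can`, `can_congr`.
-/

set_option autoImplicit false

noncomputable section

open CategoryTheory CategoryTheory.Limits CategoryTheory.Abelian

namespace Groth.Agent.Gaga.H977.CmpComp

open Groth.Agent.Gaga.H977.ExtCmp Groth.Agent.Etcore.ExtAdj

universe w w' w'' v v' v'' u u' u''

section comp

variable {A : Type u} [Category.{v} A] [Abelian A] {B : Type u'} [Category.{v'} B] [Abelian B]
  {E : Type u''} [Category.{v''} E] [Abelian E]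
  [HasExt.{w} A] [HasExt.{w'} B] [HasExt.{w''} E]

lemma cmp_cmp (P₁ : A ⥤ B) [P₁.Additive] [PreservesFiniteLimits P₁] [PreservesFiniteColimits P₁]
    (P₂ : B ⥤ E) [P₂.Additive] [PreservesFiniteLimits P₂] [PreservesFiniteColimits P₂]
    [(P₁ ⋙ P₂).Additive] [PreservesFiniteLimits (P₁ ⋙ P₂)] [PreservesFiniteColimits (P₁ ⋙ P₂)]
    [EnoughInjectives A]
    {Z : A} {Z' : B} {Z'' : E} (c₁ : Z' ⟶ P₁.obj Z) (c₂ : Z'' ⟶ P₂.obj Z') {F : A} {G : B} {K : E}
    (τ₁ : P₁.obj F ⟶ G) (τ₂ : P₂.obj G ⟶ K) (n : ℕ) (e : Ext.{w} Z F n) :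
    cmp P₂ c₂ τ₂ n (cmp P₁ c₁ τ₁ n e) =
      cmp (P₁ ⋙ P₂) (Z := Z) (Z' := Z'') (c₂ ≫ P₂.map c₁) (F := F) (G := K) (P₂.map τ₁ ≫ τ₂) n e := by
  rw [cmp_apply, cmp_apply, cmp_apply, Ext.mapExactFunctor_comp, Ext.mapExactFunctor_comp,
    Ext.mapExactFunctor_mk₀, Ext.mapExactFunctor_mk₀, mapExactFunctor_compFunctor,
    ← Ext.mk₀_comp_mk₀, ← Ext.mk₀_comp_mk₀]
  simp only [Ext.comp_assoc_of_third_deg_zero, Ext.comp_assoc_of_second_deg_zero]

variable {P P' : A ⥤ B} [P.Additive] [PreservesFiniteLimits P] [PreservesFiniteColimits P]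
  [P'.Additive] [PreservesFiniteLimits P'] [PreservesFiniteColimits P'] [EnoughInjectives A]

/-- Change of functor along a natural transformation. -/
lemma cmp_natTrans (θ : P ⟶ P') {Z : A} {Z' : B} (c : Z' ⟶ P.obj Z) {F : A} {G : B}
    (τ' : P'.obj F ⟶ G) (n : ℕ) (e : Ext.{w} Z F n) :
    cmp P c (θ.app F ≫ τ') n e = cmp P' (c ≫ θ.app Z) τ' n e := by
  rw [cmp_apply, cmp_apply, ← Ext.mk₀_comp_mk₀, ← Ext.mk₀_comp_mk₀]
  have := mapExactFunctor_nat θ e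
  rw [Ext.comp_assoc_of_second_deg_zero, ← this]
  simp only [Ext.comp_assoc_of_third_deg_zero]

end comp

section adjLemmas

variable {A : Type u} [Category.{v} A] {B : Type u'} [Category.{v'} B]
  {E : Type u''} [Category.{v''} E]

lemma homEquiv_comp_symm {L₁ : B ⥤ A} {R₁ : A ⥤ B} (adj₁ : L₁ ⊣ R₁) {L₂ : E ⥤ B} {R₂ : B ⥤ E}
    (adj₂ : L₂ ⊣ R₂) {F : A} {G : B} {K : E} (u₁ : G ⟶ R₁.obj F) (u₂ : K ⟶ R₂.obj G) :
    ((adj₂.comp adj₁).homEquiv K F).symm (u₂ ≫ R₂.map u₁) =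
      L₁.map ((adj₂.homEquiv _ _).symm u₂) ≫ (adj₁.homEquiv _ _).symm u₁ := by
  rw [Equiv.symm_apply_eq, Adjunction.comp_homEquiv]
  simp only [Equiv.trans_apply]
  rw [Adjunction.homEquiv_naturality_left, Adjunction.homEquiv_naturality_right,
    Equiv.apply_symm_apply, Equiv.apply_symm_apply]

lemma homEquiv_conj_symm {L L' : B ⥤ A} {R R' : A ⥤ B} (adj : L ⊣ R) (adj' : L' ⊣ R')
    (ρ : R ⟶ R') {F : A} {G : B} (u : G ⟶ R.obj F) :
    (adj'.homEquiv G F).symm (u ≫ ρ.app F) =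
      ((conjugateEquiv adj adj').symm ρ).app G ≫ (adj.homEquiv _ _).symm u := by
  rw [Adjunction.homEquiv_counit, Adjunction.homEquiv_counit, Functor.map_comp, Category.assoc,
    conjugateEquiv_counit_symm, ← Category.assoc, ← Category.assoc, NatTrans.naturality]

end adjLemmas

section can

variable {A : Type u} [Category.{v} A] [Abelian A] {B : Type u'} [Category.{v'} B] [Abelian B]
  {E : Type u''} [Category.{v''} E] [Abelian E]
  [HasExt.{w} A] [HasExt.{w'} B] [HasExt.{w''} E]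

/-- The canonical map `Ext Z_B G n → Ext Z_A F n` attached to `L ⊣ R`, `L` exact,
`k : Z_B ⟶ R Z_A` with invertible adjoint and `u : G ⟶ R F`. -/
def can {L : B ⥤ A} {R : A ⥤ B} (adj : L ⊣ R) [L.Additive] [PreservesFiniteLimits L]
    [PreservesFiniteColimits L] {ZA : A} {ZB : B} (k : ZB ⟶ R.obj ZA)
    (hk : IsIso ((adj.homEquiv _ _).symm k)) {F : A} {G : B} (u : G ⟶ R.obj F) (n : ℕ) :
    Ext.{w'} ZB G n →+ Ext.{w} ZA F n :=
  cmp L (@inv _ _ _ _ _ hk) ((adj.homEquiv _ _).symm u) n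

/-- Composition of canonical maps. -/
lemma can_can {L₁ : B ⥤ A} {R₁ : A ⥤ B} (adj₁ : L₁ ⊣ R₁) [L₁.Additive] [PreservesFiniteLimits L₁]
    [PreservesFiniteColimits L₁] {L₂ : E ⥤ B} {R₂ : B ⥤ E} (adj₂ : L₂ ⊣ R₂) [L₂.Additive]
    [PreservesFiniteLimits L₂] [PreservesFiniteColimits L₂]
    [(L₂ ⋙ L₁).Additive] [PreservesFiniteLimits (L₂ ⋙ L₁)] [PreservesFiniteColimits (L₂ ⋙ L₁)]
    [EnoughInjectives E]
    {ZA : A} {ZB : B} {ZE : E} (k₁ : ZB ⟶ R₁.obj ZA) (hk₁ : IsIso ((adj₁.homEquiv _ _).symm k₁))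
    (k₂ : ZE ⟶ R₂.obj ZB) (hk₂ : IsIso ((adj₂.homEquiv _ _).symm k₂))
    (hk : IsIso (((adj₂.comp adj₁).homEquiv ZE ZA).symm (k₂ ≫ R₂.map k₁)))
    {F : A} {G : B} {K : E} (u₁ : G ⟶ R₁.obj F) (u₂ : K ⟶ R₂.obj G) (n : ℕ) (e : Ext.{w''} ZE K n) :
    can adj₁ k₁ hk₁ u₁ n (can adj₂ k₂ hk₂ u₂ n e) =
      can (adj₂.comp adj₁) (k₂ ≫ R₂.map k₁) hk (u₂ ≫ R₂.map u₁) n e := by
  unfold can
  rw [cmp_cmp]
  have h1 := homEquiv_comp_symm adj₁ adj₂ u₁ u₂
  have h2 := homEquiv_comp_symm adj₁ adj₂ k₁ k₂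
  rw [h1]
  congr 1
  congr 1
  refine (cancel_mono (((adj₂.comp adj₁).homEquiv ZE ZA).symm (k₂ ≫ R₂.map k₁))).1 ?_
  rw [IsIso.inv_hom_id, h2]
  simp only [Category.assoc, Functor.map_inv, IsIso.inv_hom_id_assoc, IsIso.inv_hom_id]

/-- Change of adjunction along a transformation of the right adjoints. -/
lemma can_congr [EnoughInjectives B] {L L' : B ⥤ A} {R R' : A ⥤ B} (adj : L ⊣ R) (adj' : L' ⊣ R')
    (ρ : R ⟶ R') [L.Additive] [PreservesFiniteLimits L] [PreservesFiniteColimits L]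
    [L'.Additive] [PreservesFiniteLimits L'] [PreservesFiniteColimits L']
    {ZA : A} {ZB : B} (k : ZB ⟶ R.obj ZA) (hk : IsIso ((adj.homEquiv _ _).symm k))
    (hk' : IsIso ((adj'.homEquiv _ _).symm (k ≫ ρ.app ZA)))
    {F : A} {G : B} (u : G ⟶ R.obj F) (n : ℕ) (e : Ext.{w'} ZB G n) :
    can adj' (k ≫ ρ.app ZA) hk' (u ≫ ρ.app F) n e = can adj k hk u n e := by
  unfold can
  have h1 := homEquiv_conj_symm adj adj' ρ u
  have h2 := homEquiv_conj_symm adj adj' ρ k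
  rw [h1, cmp_natTrans]
  congr 1
  congr 1
  refine (cancel_mono ((adj.homEquiv _ _).symm k)).1 ?_
  rw [IsIso.inv_hom_id, Category.assoc, ← h2, IsIso.inv_hom_id]

/-- Naturality of `can` in the target. -/
lemma can_postcomp {L : B ⥤ A} {R : A ⥤ B} (adj : L ⊣ R) [L.Additive] [PreservesFiniteLimits L]
    [PreservesFiniteColimits L] {ZA : A} {ZB : B} (k : ZB ⟶ R.obj ZA)
    (hk : IsIso ((adj.homEquiv _ _).symm k)) {F F' : A} {G : B} (u : G ⟶ R.obj F) (g : F ⟶ F')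
    (n : ℕ) (e : Ext.{w'} ZB G n) :
    (can adj k hk u n e).comp (Ext.mk₀ g) (add_zero n) = can adj k hk (u ≫ R.map g) n e := by
  unfold can
  rw [cmp_apply, cmp_apply, Adjunction.homEquiv_naturality_right_symm, ← Ext.mk₀_comp_mk₀]
  simp only [Ext.comp_assoc_of_third_deg_zero]

/-- Naturality of `can` in the source. -/
lemma can_precomp {L : B ⥤ A} {R : A ⥤ B} (adj : L ⊣ R) [L.Additive] [PreservesFiniteLimits L]
    [PreservesFiniteColimits L] {ZA : A} {ZB : B} (k : ZB ⟶ R.obj ZA)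
    (hk : IsIso ((adj.homEquiv _ _).symm k)) {F : A} {G G' : B} (u : G ⟶ R.obj F) (g : G' ⟶ G)
    (n : ℕ) (e : Ext.{w'} ZB G' n) :
    can adj k hk u n (e.comp (Ext.mk₀ g) (add_zero n)) = can adj k hk (g ≫ u) n e := by
  unfold can
  rw [cmp_apply, cmp_apply, Adjunction.homEquiv_naturality_left_symm, ← Ext.mk₀_comp_mk₀,
    Ext.mapExactFunctor_comp, Ext.mapExactFunctor_mk₀]
  simp only [Ext.comp_assoc_of_third_deg_zero, Ext.comp_assoc_of_second_deg_zero]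

/-- `can` is determined by `k`, `u` up to equality. -/
lemma can_eq {L : B ⥤ A} {R : A ⥤ B} (adj : L ⊣ R) [L.Additive] [PreservesFiniteLimits L]
    [PreservesFiniteColimits L] {ZA : A} {ZB : B} {k k' : ZB ⟶ R.obj ZA}
    (hk : IsIso ((adj.homEquiv _ _).symm k)) (hk' : IsIso ((adj.homEquiv _ _).symm k'))
    {F : A} {G : B} {u u' : G ⟶ R.obj F} (n : ℕ) (e : Ext.{w'} ZB G n) (h : k = k') (h' : u = u') :
    can adj k hk u n e = can adj k' hk' u' n e := by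
  subst h h'
  rfl

end can

end Groth.Agent.Gaga.H977.CmpComp
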