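import Groth.Agent.Gaga.H364.TwEmb
import Groth.Agent.CohqB.SerTw
import Groth.Agent.CohqB.ProjBC
import Groth.Agent.Ega2.TwistBasic
import Groth.Agent.Fdesc.LocGenPullback

/-!
# Embedding a module on `P^n_S` into sums of twists
-/

set_option autoImplicit false
universe u

open CategoryTheory CategoryTheory.Limits AlgebraicGeometry TopologicalSpace Opposite

noncomputable section

namespace Groth.Agent.Gaga.H977.Emb

attribute [local instance] Abelian.hasFiniteBiproducts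

open Groth.Agent.Fdesc.LocGen Groth.Agent.CohqB.SerTw Groth.Agent.Gaga.H364.TwEmb
  Groth.Agent.CohqB.ProjBC

/-- Multiplication by sections generating `L` over the members of a cover. -/
theorem mono_lift_mulSec {X : Scheme.{u}} {ι : Type} [Finite ι] {L : X.Modules}
    (s : ι → Γ(L, ⊤)) (W : ι → X.Opens) (hW : ⨆ i, W i = ⊤)
    (hg : ∀ i, IsGen (res L (le_top : W i ≤ ⊤) (s i))) (M : X.Modules) :
    Mono (biproduct.lift fun i => mulSec (s i) M) :=
  mono_lift W hW _ fun i _ hV => (mulSec_app_bijective (s i) M (hg i) hV).1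

/-- `X_i ^ k` as a global section of `O(k)` on `P^n_R`. -/
def psec (n : ℕ) (R : Type u) [CommRing R] (i : Fin (n + 1)) (k : ℕ) :
    Γ(Twist.twistProjSpace n R (k : ℤ), ⊤) :=
  Groth.Agent.Ega2.TwistBasic.fracSec (𝒜 := CohB1.polyGrading n R) (k : ℤ) (powVar n R i k)
    (1 : CohB1.polyGrading n R 0) (by simp) ⊤
    (fun x _ h => x.isPrime.ne_top ((Ideal.eq_top_iff_one _).mpr h))

theorem isGen_psec (n : ℕ) (R : Type u) [CommRing R] (i : Fin (n + 1)) (k : ℕ) :
    IsGen (res (Twist.twistProjSpace n R (k : ℤ)) (le_top : Ega3B.ProjTwist.D n R i ≤ ⊤)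
      (psec n R i k)) :=
  Groth.Agent.Ega2.TwistBasic.isGen_fracSec (𝒜 := CohB1.polyGrading n R) (k : ℤ) (powVar n R i k)
    (1 : CohB1.polyGrading n R 0) (by simp) (Ega3B.ProjTwist.D n R i)
    (fun x _ h => x.isPrime.ne_top ((Ideal.eq_top_iff_one _).mpr h))
    (fun x hx hx' => hx (x.isPrime.mem_of_pow_mem k hx'))

/-- `X_i ^ k` as a global section of `O(k)` on `P^n_S`. -/
def osec (n : ℕ) (S : Scheme.{u}) (i : Fin (n + 1)) (k : ℕ) :
    Γ(Twist.twistOver n S (k : ℤ), ⊤) :=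
  pullSec (fstZ n S) (M := Twist.twistProjSpace n (ULift.{u} ℤ) (k : ℤ)) (U := ⊤)
    (psec n (ULift.{u} ℤ) i k)

theorem isGen_osec (n : ℕ) (S : Scheme.{u}) (i : Fin (n + 1)) (k : ℕ) :
    IsGen (res (Twist.twistOver n S (k : ℤ))
      (le_top : (fstZ n S) ⁻¹ᵁ (Ega3B.ProjTwist.D n (ULift.{u} ℤ) i) ≤ ⊤) (osec n S i k)) := by
  have h1 := (isGen_psec n (ULift.{u} ℤ) i k).pullSec (fstZ n S)
  have h2 := res_pullSec (fstZ n S) (M := Twist.twistProjSpace n (ULift.{u} ℤ) (k : ℤ))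
    (le_top : Ega3B.ProjTwist.D n (ULift.{u} ℤ) i ≤ ⊤) (psec n (ULift.{u} ℤ) i k)
  rw [← h2] at h1
  exact h1

/-- **Embedding into twists** on `P^n_S`. -/
theorem exists_mono (n : ℕ) {S : Scheme.{u}} (M : (CohB1.ProjSpaceOver n S).Modules) (k : ℕ) :
    ∃ g : M ⟶ ⨁ fun _ : Fin (n + 1) => CohB1.tensorMod M (Twist.twistOver n S (k : ℤ)),
      Mono g :=
  ⟨_, mono_lift_mulSec (fun i => osec n S i k)
    (fun i => (fstZ n S) ⁻¹ᵁ (Ega3B.ProjTwist.D n (ULift.{u} ℤ) i))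
    (by
      rw [← Scheme.Hom.preimage_iSup, iSup_D]
      rfl) (fun i => isGen_osec n S i k) M⟩

end Groth.Agent.Gaga.H977.Emb
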