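import Mathlib.Algebra.Homology.DerivedCategory.Ext.ExactSequences
import Mathlib.Algebra.Homology.DerivedCategory.Ext.Map

/-!
# Comparison maps `Ext Z F n → Ext Z' G n` along an exact functor, five lemmas, descending induction

`P : A ⥤ B` exact, `c : Z' ⟶ P Z`, `τ : P F ⟶ G`.
`cmp P c τ n : Ext Z F n →+ Ext Z' G n`, `e ↦ c ∘ P(e) ∘ τ`.
It commutes with push-out maps and with connecting maps.
-/

set_option autoImplicit false

noncomputable section

open CategoryTheory CategoryTheory.Limits CategoryTheory.Abelian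

namespace Groth.Agent.Gaga.H977.ExtCmp

universe w w' v v' u u'

variable {A : Type u} [Category.{v} A] [Abelian A] {B : Type u'} [Category.{v'} B] [Abelian B]
  [HasExt.{w} A] [HasExt.{w'} B]
  (P : A ⥤ B) [P.Additive] [PreservesFiniteLimits P] [PreservesFiniteColimits P]

/-- The comparison map `Ext Z F n →+ Ext Z' G n` attached to `c : Z' ⟶ P Z` and `τ : P F ⟶ G`. -/
def cmp {Z : A} {Z' : B} (c : Z' ⟶ P.obj Z) {F : A} {G : B} (τ : P.obj F ⟶ G) (n : ℕ) :
    Ext.{w} Z F n →+ Ext.{w'} Z' G n :=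
  AddMonoidHom.comp
    (AddMonoidHom.mk'
      (fun e => ((Ext.mk₀ c).comp e (zero_add n)).comp (Ext.mk₀ τ) (add_zero n))
      (fun a b => by rw [Ext.comp_add, Ext.add_comp]))
    (P.mapExtAddHom Z F n)

variable {P}

lemma cmp_apply {Z : A} {Z' : B} (c : Z' ⟶ P.obj Z) {F : A} {G : B} (τ : P.obj F ⟶ G) {n : ℕ}
    (e : Ext.{w} Z F n) :
    cmp P c τ n e =
      ((Ext.mk₀ c).comp (e.mapExactFunctor P) (zero_add n)).comp (Ext.mk₀ τ) (add_zero n) := rfl

/-- Composition with a class on the right: `cmp (e ∘ f) = cmp e ∘ g` as soon as `P f` and `g` are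
compatible through `τ`, `τ'`. -/
lemma cmp_comp {Z : A} {Z' : B} (c : Z' ⟶ P.obj Z) {F F' : A} {G G' : B} (τ : P.obj F ⟶ G)
    (τ' : P.obj F' ⟶ G') {n m k : ℕ} (hk : n + m = k) (f : Ext.{w} F F' m) (g : Ext.{w'} G G' m)
    (h : (f.mapExactFunctor P).comp (Ext.mk₀ τ') (add_zero m) = (Ext.mk₀ τ).comp g (zero_add m))
    (e : Ext.{w} Z F n) :
    cmp P c τ' k (e.comp f hk) = (cmp P c τ n e).comp g hk := by
  rw [cmp_apply, cmp_apply, Ext.mapExactFunctor_comp]
  rw [Ext.comp_assoc _ _ _ (zero_add n) (add_zero n) (by lia)]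
  rw [Ext.comp_assoc _ _ _ (zero_add n) hk (by lia)]
  rw [Ext.comp_assoc _ _ _ (zero_add k) (add_zero k) (by lia)]
  rw [Ext.comp_assoc _ _ _ hk (add_zero m) (by lia)]
  rw [h]
  rw [← Ext.comp_assoc _ _ _ (add_zero n) (zero_add m) (by lia)]

lemma cmp_mk₀ {Z : A} {Z' : B} (c : Z' ⟶ P.obj Z) {F F' : A} {G G' : B} (τ : P.obj F ⟶ G)
    (τ' : P.obj F' ⟶ G') {n : ℕ} (f : F ⟶ F') (g : G ⟶ G')
    (h : P.map f ≫ τ' = τ ≫ g)
    (e : Ext.{w} Z F n) :
    cmp P c τ' n (e.comp (Ext.mk₀ f) (add_zero n)) =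
      (cmp P c τ n e).comp (Ext.mk₀ g) (add_zero n) := by
  apply cmp_comp
  rw [Ext.mapExactFunctor_mk₀, Ext.mk₀_comp_mk₀, Ext.mk₀_comp_mk₀, h]

lemma cmp_extClass {Z : A} {Z' : B} (c : Z' ⟶ P.obj Z) {S : ShortComplex A} {T : ShortComplex B}
    (hS : S.ShortExact) (hT : T.ShortExact) (φ : S.map P ⟶ T) {n k : ℕ} (hk : n + 1 = k)
    (e : Ext.{w} Z S.X₃ n) :
    cmp P c φ.τ₁ k (e.comp hS.extClass hk) = (cmp P c φ.τ₃ n e).comp hT.extClass hk := by
  apply cmp_comp
  rw [Ext.mapExactFunctor_extClass]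
  exact ShortComplex.ShortExact.extClass_naturality (hS.map_of_exact P) hT φ

section fourLemmas

variable {Z : A} {Z' : B} (c : Z' ⟶ P.obj Z) {S : ShortComplex A} {T : ShortComplex B}
    (hS : S.ShortExact) (hT : T.ShortExact) (φ : S.map P ⟶ T)

lemma cmp_f {n : ℕ} (e : Ext.{w} Z S.X₁ n) :
    cmp P c φ.τ₂ n (e.comp (Ext.mk₀ S.f) (add_zero n)) =
      (cmp P c φ.τ₁ n e).comp (Ext.mk₀ T.f) (add_zero n) :=
  cmp_mk₀ c φ.τ₁ φ.τ₂ S.f T.f φ.comm₁₂.symm e

lemma cmp_g {n : ℕ} (e : Ext.{w} Z S.X₂ n) :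
    cmp P c φ.τ₃ n (e.comp (Ext.mk₀ S.g) (add_zero n)) =
      (cmp P c φ.τ₂ n e).comp (Ext.mk₀ T.g) (add_zero n) :=
  cmp_mk₀ c φ.τ₂ φ.τ₃ S.g T.g φ.comm₂₃.symm e

/-- `Ext` composition is additive in the first variable, in subtraction form. -/
lemma sub_comp' {X Y W : B} {a b k : ℕ} (x y : Ext.{w'} X Y a) (f : Ext.{w'} Y W b) (h : a + b = k) :
    (x - y).comp f h = x.comp f h - y.comp f h :=
  map_sub (f.postcomp X h) x y

include hS hT in
/-- Four lemma: surjectivity on the quotient term. -/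
lemma surj_right {n : ℕ} (h2 : Function.Surjective (cmp P c φ.τ₂ n))
    (h1 : Function.Surjective (cmp P c φ.τ₁ (n + 1)))
    (h2' : Function.Injective (cmp P c φ.τ₂ (n + 1))) :
    Function.Surjective (cmp P c φ.τ₃ n) := by
  intro y
  obtain ⟨x1, hx1⟩ := h1 (y.comp hT.extClass rfl)
  have hz : x1.comp (Ext.mk₀ S.f) (add_zero _) = 0 := by
    apply h2'
    rw [map_zero, cmp_f, hx1, Ext.comp_assoc_of_third_deg_zero]
    simp
  obtain ⟨x3, hx3⟩ := Ext.covariant_sequence_exact₁ _ hS x1 hz rfl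
  have hd : (y - cmp P c φ.τ₃ n x3).comp hT.extClass rfl = 0 := by
    rw [sub_comp', ← cmp_extClass c hS hT φ rfl x3, hx3, hx1, sub_self]
  obtain ⟨y2, hy2⟩ := Ext.covariant_sequence_exact₃ _ hT _ rfl hd
  obtain ⟨x2, rfl⟩ := h2 y2
  refine ⟨x3 + x2.comp (Ext.mk₀ S.g) (add_zero n), ?_⟩
  rw [map_add, cmp_g, hy2]
  abel

include hS hT in
/-- Four lemma: injectivity on the quotient term. -/
lemma inj_right {n : ℕ} (h1 : Function.Surjective (cmp P c φ.τ₁ n))
    (h2 : Function.Injective (cmp P c φ.τ₂ n))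
    (h1' : Function.Injective (cmp P c φ.τ₁ (n + 1))) :
    Function.Injective (cmp P c φ.τ₃ n) := by
  rw [injective_iff_map_eq_zero]
  intro x hx
  have hz : x.comp hS.extClass rfl = 0 := by
    apply h1'
    rw [cmp_extClass c hS hT φ rfl x, hx, map_zero, Ext.zero_comp]
  obtain ⟨x2, rfl⟩ := Ext.covariant_sequence_exact₃ _ hS _ rfl hz
  rw [cmp_g] at hx
  obtain ⟨y1, hy1⟩ := Ext.covariant_sequence_exact₂ _ hT _ hx
  obtain ⟨x1, rfl⟩ := h1 y1
  have : x2 = x1.comp (Ext.mk₀ S.f) (add_zero n) := by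
    apply h2
    rw [cmp_f, hy1]
  rw [this, Ext.comp_assoc_of_third_deg_zero]
  simp

include hS hT in
/-- Four lemma: surjectivity on the middle term. -/
lemma surj_mid {n : ℕ} (h1 : Function.Surjective (cmp P c φ.τ₁ n))
    (h3 : Function.Surjective (cmp P c φ.τ₃ n))
    (h1' : Function.Injective (cmp P c φ.τ₁ (n + 1))) :
    Function.Surjective (cmp P c φ.τ₂ n) := by
  intro y
  obtain ⟨x3, hx3⟩ := h3 (y.comp (Ext.mk₀ T.g) (add_zero n))
  have hz : x3.comp hS.extClass rfl = 0 := by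
    apply h1'
    rw [cmp_extClass c hS hT φ rfl x3, hx3, map_zero, Ext.comp_assoc_of_second_deg_zero]
    simp
  obtain ⟨x2, rfl⟩ := Ext.covariant_sequence_exact₃ _ hS _ rfl hz
  rw [cmp_g] at hx3
  have hd : (y - cmp P c φ.τ₂ n x2).comp (Ext.mk₀ T.g) (add_zero n) = 0 := by
    rw [sub_comp', hx3, sub_self]
  obtain ⟨y1, hy1⟩ := Ext.covariant_sequence_exact₂ _ hT _ hd
  obtain ⟨x1, rfl⟩ := h1 y1
  refine ⟨x2 + x1.comp (Ext.mk₀ S.f) (add_zero n), ?_⟩
  rw [map_add, cmp_f, hy1]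
  abel

include hS hT in
/-- Four lemma: injectivity on the middle term, positive degree. -/
lemma inj_mid_succ {n : ℕ} (h3' : Function.Surjective (cmp P c φ.τ₃ n))
    (h1 : Function.Injective (cmp P c φ.τ₁ (n + 1)))
    (h3 : Function.Injective (cmp P c φ.τ₃ (n + 1))) :
    Function.Injective (cmp P c φ.τ₂ (n + 1)) := by
  rw [injective_iff_map_eq_zero]
  intro x hx
  have hz : x.comp (Ext.mk₀ S.g) (add_zero _) = 0 := by
    apply h3
    rw [cmp_g, hx, map_zero, Ext.zero_comp]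
  obtain ⟨x1, rfl⟩ := Ext.covariant_sequence_exact₂ _ hS _ hz
  rw [cmp_f] at hx
  obtain ⟨y3, hy3⟩ := Ext.covariant_sequence_exact₁ _ hT _ hx rfl
  obtain ⟨x3, rfl⟩ := h3' y3
  have : x1 = x3.comp hS.extClass rfl := by
    apply h1
    rw [cmp_extClass c hS hT φ rfl x3, hy3]
  rw [this, Ext.comp_assoc_of_third_deg_zero]
  simp

include hS hT in
/-- Four lemma: injectivity on the middle term, degree zero. -/
lemma inj_mid_zero (h1 : Function.Injective (cmp P c φ.τ₁ 0))
    (h3 : Function.Injective (cmp P c φ.τ₃ 0)) :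
    Function.Injective (cmp P c φ.τ₂ 0) := by
  rw [injective_iff_map_eq_zero]
  intro x hx
  have hz : x.comp (Ext.mk₀ S.g) (add_zero _) = 0 := by
    apply h3
    rw [cmp_g, hx, map_zero, Ext.zero_comp]
  obtain ⟨x1, rfl⟩ := Ext.covariant_sequence_exact₂ _ hS _ hz
  rw [cmp_f] at hx
  have := hT.mono_f
  have hy : cmp P c φ.τ₁ 0 x1 = 0 := by
    apply Ext.postcomp_mk₀_injective_of_mono Z' T.f
    rw [map_zero]
    exact hx
  have : x1 = 0 := by
    apply h1
    rw [hy, map_zero]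
  rw [this, Ext.zero_comp]

include hS hT in
/-- Four lemma: surjectivity on the sub-object term, positive degree. -/
lemma surj_left_succ {n : ℕ} (h3' : Function.Surjective (cmp P c φ.τ₃ n))
    (h2 : Function.Surjective (cmp P c φ.τ₂ (n + 1)))
    (h3 : Function.Injective (cmp P c φ.τ₃ (n + 1))) :
    Function.Surjective (cmp P c φ.τ₁ (n + 1)) := by
  intro y
  obtain ⟨x2, hx2⟩ := h2 (y.comp (Ext.mk₀ T.f) (add_zero _))
  have hz : x2.comp (Ext.mk₀ S.g) (add_zero _) = 0 := by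
    apply h3
    rw [cmp_g, hx2, map_zero, Ext.comp_assoc_of_third_deg_zero]
    simp
  obtain ⟨x1, rfl⟩ := Ext.covariant_sequence_exact₂ _ hS _ hz
  rw [cmp_f] at hx2
  have hd : (y - cmp P c φ.τ₁ _ x1).comp (Ext.mk₀ T.f) (add_zero _) = 0 := by
    rw [sub_comp', hx2, sub_self]
  obtain ⟨y3, hy3⟩ := Ext.covariant_sequence_exact₁ _ hT _ hd rfl
  obtain ⟨x3, rfl⟩ := h3' y3
  refine ⟨x1 + x3.comp hS.extClass rfl, ?_⟩
  rw [map_add, cmp_extClass c hS hT φ rfl x3, hy3]
  abel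

include hS hT in
/-- Four lemma: surjectivity on the sub-object term, degree zero. -/
lemma surj_left_zero
    (h2 : Function.Surjective (cmp P c φ.τ₂ 0))
    (h3 : Function.Injective (cmp P c φ.τ₃ 0)) :
    Function.Surjective (cmp P c φ.τ₁ 0) := by
  intro y
  obtain ⟨x2, hx2⟩ := h2 (y.comp (Ext.mk₀ T.f) (add_zero _))
  have hz : x2.comp (Ext.mk₀ S.g) (add_zero _) = 0 := by
    apply h3
    rw [cmp_g, hx2, map_zero, Ext.comp_assoc_of_third_deg_zero]
    simp
  obtain ⟨x1, rfl⟩ := Ext.covariant_sequence_exact₂ _ hS _ hz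
  rw [cmp_f] at hx2
  refine ⟨x1, ?_⟩
  have := hT.mono_f
  exact Ext.postcomp_mk₀_injective_of_mono Z' T.f hx2

include hS hT in
/-- Four lemma: injectivity on the sub-object term, positive degree. -/
lemma inj_left_succ {n : ℕ} (h2' : Function.Surjective (cmp P c φ.τ₂ n))
    (h3' : Function.Injective (cmp P c φ.τ₃ n))
    (h2 : Function.Injective (cmp P c φ.τ₂ (n + 1))) :
    Function.Injective (cmp P c φ.τ₁ (n + 1)) := by
  rw [injective_iff_map_eq_zero]
  intro x hx
  have hz : x.comp (Ext.mk₀ S.f) (add_zero _) = 0 := by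
    apply h2
    rw [cmp_f, hx, map_zero, Ext.zero_comp]
  obtain ⟨x3, rfl⟩ := Ext.covariant_sequence_exact₁ _ hS _ hz rfl
  rw [cmp_extClass c hS hT φ rfl x3] at hx
  obtain ⟨y2, hy2⟩ := Ext.covariant_sequence_exact₃ _ hT _ rfl hx
  obtain ⟨x2, rfl⟩ := h2' y2
  have : x3 = x2.comp (Ext.mk₀ S.g) (add_zero _) := by
    apply h3'
    rw [cmp_g, hy2]
  rw [this, Ext.comp_assoc_of_second_deg_zero]
  simp

include hS in
/-- Four lemma: injectivity on the sub-object term, degree zero. -/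
lemma inj_left_zero
    (h2 : Function.Injective (cmp P c φ.τ₂ 0)) :
    Function.Injective (cmp P c φ.τ₁ 0) := by
  rw [injective_iff_map_eq_zero]
  intro x hx
  have := hS.mono_f
  have hz : x.comp (Ext.mk₀ S.f) (add_zero _) = 0 := by
    apply h2
    rw [cmp_f, hx, map_zero, Ext.zero_comp]
  apply Ext.postcomp_mk₀_injective_of_mono Z S.f
  rw [map_zero]
  exact hz

include hS hT in
/-- Two out of three, middle term. -/
lemma bij_mid (h1 : ∀ n, Function.Bijective (cmp P c φ.τ₁ n))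
    (h3 : ∀ n, Function.Bijective (cmp P c φ.τ₃ n)) (n : ℕ) :
    Function.Bijective (cmp P c φ.τ₂ n) := by
  refine ⟨?_, surj_mid c hS hT φ (h1 n).2 (h3 n).2 (h1 (n + 1)).1⟩
  cases n with
  | zero => exact inj_mid_zero c hS hT φ (h1 0).1 (h3 0).1
  | succ n => exact inj_mid_succ c hS hT φ (h3 n).2 (h1 _).1 (h3 _).1

include hS hT in
/-- Two out of three, quotient term. -/
lemma bij_right (h1 : ∀ n, Function.Bijective (cmp P c φ.τ₁ n))
    (h2 : ∀ n, Function.Bijective (cmp P c φ.τ₂ n)) (n : ℕ) :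
    Function.Bijective (cmp P c φ.τ₃ n) :=
  ⟨inj_right c hS hT φ (h1 n).2 (h2 n).1 (h1 _).1, surj_right c hS hT φ (h2 n).2 (h1 _).2 (h2 _).1⟩

include hS hT in
/-- Two out of three, sub-object term. -/
lemma bij_left (h2 : ∀ n, Function.Bijective (cmp P c φ.τ₂ n))
    (h3 : ∀ n, Function.Bijective (cmp P c φ.τ₃ n)) (n : ℕ) :
    Function.Bijective (cmp P c φ.τ₁ n) := by
  cases n with
  | zero => exact ⟨inj_left_zero c hS φ (h2 0).1, surj_left_zero c hS hT φ (h2 0).2 (h3 0).1⟩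
  | succ n => exact ⟨inj_left_succ c hS hT φ (h2 n).2 (h3 n).1 (h2 _).1,
      surj_left_succ c hS hT φ (h3 n).2 (h2 _).2 (h3 _).1⟩

end fourLemmas

lemma injective_of_iso {Z : A} {Z' : B} (c : Z' ⟶ P.obj Z) {F F' : A} {G G' : B}
    (τ : P.obj F ⟶ G) (τ' : P.obj F' ⟶ G') {n : ℕ} (f : F ≅ F') (g : G ≅ G')
    (h : P.map f.hom ≫ τ' = τ ≫ g.hom) (hb : Function.Injective (cmp P c τ n)) :
    Function.Injective (cmp P c τ' n) := by
  have key : ∀ e : Ext.{w} Z F n, cmp P c τ' n (e.comp (Ext.mk₀ f.hom) (add_zero n)) =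
      (cmp P c τ n e).comp (Ext.mk₀ g.hom) (add_zero n) := cmp_mk₀ c τ τ' f.hom g.hom h
  rw [injective_iff_map_eq_zero]
  intro x hx
  have hx' : x = (x.comp (Ext.mk₀ f.inv) (add_zero n)).comp (Ext.mk₀ f.hom) (add_zero n) := by
    rw [Ext.comp_assoc_of_third_deg_zero]
    simp
  rw [hx', key] at hx
  have hy : cmp P c τ n (x.comp (Ext.mk₀ f.inv) (add_zero n)) = 0 := by
    have := congrArg (fun t => t.comp (Ext.mk₀ g.inv) (add_zero n)) hx
    simpa [Ext.comp_assoc_of_third_deg_zero] using this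
  have hz : x.comp (Ext.mk₀ f.inv) (add_zero n) = 0 := by
    apply hb
    rw [hy, map_zero]
  rw [hx', hz, Ext.zero_comp]

lemma surjective_of_iso {Z : A} {Z' : B} (c : Z' ⟶ P.obj Z) {F F' : A} {G G' : B}
    (τ : P.obj F ⟶ G) (τ' : P.obj F' ⟶ G') {n : ℕ} (f : F ≅ F') (g : G ≅ G')
    (h : P.map f.hom ≫ τ' = τ ≫ g.hom) (hb : Function.Surjective (cmp P c τ n)) :
    Function.Surjective (cmp P c τ' n) := by
  have key : ∀ e : Ext.{w} Z F n, cmp P c τ' n (e.comp (Ext.mk₀ f.hom) (add_zero n)) =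
      (cmp P c τ n e).comp (Ext.mk₀ g.hom) (add_zero n) := cmp_mk₀ c τ τ' f.hom g.hom h
  intro y
  obtain ⟨x, hx⟩ := hb (y.comp (Ext.mk₀ g.inv) (add_zero n))
  refine ⟨x.comp (Ext.mk₀ f.hom) (add_zero n), ?_⟩
  rw [key, hx, Ext.comp_assoc_of_third_deg_zero]
  simp

/-- Bijectivity of the comparison map only depends on `(F, G, τ)` up to isomorphism. -/
lemma bijective_of_iso {Z : A} {Z' : B} (c : Z' ⟶ P.obj Z) {F F' : A} {G G' : B} (τ : P.obj F ⟶ G)
    (τ' : P.obj F' ⟶ G') {n : ℕ} (f : F ≅ F') (g : G ≅ G')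
    (h : P.map f.hom ≫ τ' = τ ≫ g.hom) (hb : Function.Bijective (cmp P c τ n)) :
    Function.Bijective (cmp P c τ' n) :=
  ⟨injective_of_iso c τ τ' f g h hb.1, surjective_of_iso c τ τ' f g h hb.2⟩

/-- Comparison maps for a zero source and a zero target are bijective. -/
lemma bijective_of_isZero {Z : A} {Z' : B} (c : Z' ⟶ P.obj Z) {F : A} {G : B} (τ : P.obj F ⟶ G)
    (n : ℕ) (hF : IsZero F) (hG : IsZero G) : Function.Bijective (cmp P c τ n) := by
  have h1 : Subsingleton (Ext.{w} Z F n) := by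
    refine ⟨fun x y => ?_⟩
    have e : ∀ x : Ext.{w} Z F n, x = 0 := fun x => by
      have : x = x.comp (Ext.mk₀ (𝟙 F)) (add_zero n) := by simp
      rw [this, hF.eq_of_src (𝟙 F) 0]
      simp
    rw [e x, e y]
  have h2 : Subsingleton (Ext.{w'} Z' G n) := by
    refine ⟨fun x y => ?_⟩
    have e : ∀ x : Ext.{w'} Z' G n, x = 0 := fun x => by
      have : x = x.comp (Ext.mk₀ (𝟙 G)) (add_zero n) := by simp
      rw [this, hG.eq_of_src (𝟙 G) 0]
      simp
    rw [e x, e y]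
  exact ⟨fun _ _ _ => Subsingleton.elim _ _, fun y => ⟨0, Subsingleton.elim _ _⟩⟩

section functorial

variable {C : Type*} [Category C] [Abelian C]
  {T : C ⥤ A} {T' : C ⥤ B} [T.PreservesZeroMorphisms] [T'.PreservesZeroMorphisms]
  (τ : T ⋙ P ⟶ T') {Z : A} {Z' : B} (c : Z' ⟶ P.obj Z)

/-- The morphism of short complexes attached to `τ`. -/
def scHom (S : ShortComplex C) : (S.map T).map P ⟶ S.map T' where
  τ₁ := τ.app S.X₁
  τ₂ := τ.app S.X₂
  τ₃ := τ.app S.X₃
  comm₁₂ := (τ.naturality S.f).symm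
  comm₂₃ := (τ.naturality S.g).symm

variable (hT : ∀ S : ShortComplex C, S.ShortExact → (S.map T).ShortExact)
  (hT' : ∀ S : ShortComplex C, S.ShortExact → (S.map T').ShortExact)

include hT hT' in
lemma functorial_bij_mid (S : ShortComplex C) (hS : S.ShortExact)
    (h1 : ∀ n, Function.Bijective (cmp P c (τ.app S.X₁) n))
    (h3 : ∀ n, Function.Bijective (cmp P c (τ.app S.X₃) n)) (n : ℕ) :
    Function.Bijective (cmp P c (τ.app S.X₂) n) :=
  bij_mid c (hT S hS) (hT' S hS) (scHom τ S) h1 h3 n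

include hT hT' in
lemma functorial_bij_right (S : ShortComplex C) (hS : S.ShortExact)
    (h1 : ∀ n, Function.Bijective (cmp P c (τ.app S.X₁) n))
    (h2 : ∀ n, Function.Bijective (cmp P c (τ.app S.X₂) n)) (n : ℕ) :
    Function.Bijective (cmp P c (τ.app S.X₃) n) :=
  bij_right c (hT S hS) (hT' S hS) (scHom τ S) h1 h2 n

include hT hT' in
lemma functorial_bij_left (S : ShortComplex C) (hS : S.ShortExact)
    (h2 : ∀ n, Function.Bijective (cmp P c (τ.app S.X₂) n))
    (h3 : ∀ n, Function.Bijective (cmp P c (τ.app S.X₃) n)) (n : ℕ) :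
    Function.Bijective (cmp P c (τ.app S.X₁) n) :=
  bij_left c (hT S hS) (hT' S hS) (scHom τ S) h2 h3 n

omit [T.PreservesZeroMorphisms] [T'.PreservesZeroMorphisms] [Abelian C] in
lemma functorial_bij_iso {M N : C} (e : M ≅ N) (n : ℕ)
    (h : Function.Bijective (cmp P c (τ.app M) n)) : Function.Bijective (cmp P c (τ.app N) n) :=
  bijective_of_iso c (τ.app M) (τ.app N) (T.mapIso e) (T'.mapIso e) (τ.naturality e.hom) h

include hT hT' in
/-- Descending induction: if every `M` in the class `Q` is a quotient of an object for which the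
comparison map is bijective, with kernel in `Q`, and both cohomologies vanish on `Q` in degrees
`> N`, then the comparison map is bijective for all objects of `Q`. -/
theorem bijective_of_descending (Q : C → Prop) (N : ℕ)
    (hres : ∀ M, Q M → ∃ S : ShortComplex C, S.ShortExact ∧ Nonempty (S.X₃ ≅ M) ∧ Q S.X₁ ∧
      ∀ n, Function.Bijective (cmp P c (τ.app S.X₂) n))
    (hA : ∀ M, Q M → ∀ n, N < n → Subsingleton (Ext.{w} Z (T.obj M) n))
    (hB : ∀ M, Q M → ∀ n, N < n → Subsingleton (Ext.{w'} Z' (T'.obj M) n))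
    (M : C) (hM : Q M) (n : ℕ) : Function.Bijective (cmp P c (τ.app M) n) := by
  -- claim for all `k`: bijective in degrees `> N - k`
  have key : ∀ k : ℕ, ∀ n, N < n + k → ∀ M, Q M → Function.Bijective (cmp P c (τ.app M) n) := by
    intro k
    induction k with
    | zero =>
      intro n hn M hM
      have := hA M hM n (by simpa using hn)
      have := hB M hM n (by simpa using hn)
      exact ⟨fun _ _ _ => Subsingleton.elim (α := Ext.{w} Z (T.obj M) n) _ _,
        fun y => ⟨0, Subsingleton.elim (α := Ext.{w'} Z' (T'.obj M) n) _ _⟩⟩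
    | succ k ih =>
      intro n hn
      have hs : ∀ M, Q M → Function.Surjective (cmp P c (τ.app M) n) := by
        intro M hM
        obtain ⟨S, hS, ⟨e⟩, hK, hL⟩ := hres M hM
        have h3 : Function.Surjective (cmp P c (τ.app S.X₃) n) :=
          surj_right c (hT S hS) (hT' S hS) (scHom τ S) (hL n).2
            (ih (n + 1) (by omega) S.X₁ hK).2 (hL (n + 1)).1
        intro y
        -- transport along `e`
        obtain ⟨x, hx⟩ := h3 (y.comp (Ext.mk₀ (T'.map e.inv)) (add_zero n))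
        refine ⟨x.comp (Ext.mk₀ (T.map e.hom)) (add_zero n), ?_⟩
        rw [cmp_mk₀ c (τ.app S.X₃) (τ.app M) (T.map e.hom) (T'.map e.hom) (τ.naturality e.hom) x, hx,
          Ext.comp_assoc_of_third_deg_zero, Ext.mk₀_comp_mk₀, ← T'.map_comp, e.inv_hom_id]
        simp
      intro M hM
      obtain ⟨S, hS, ⟨e⟩, hK, hL⟩ := hres M hM
      refine functorial_bij_iso τ c e n ⟨?_, ?_⟩
      · exact inj_right c (hT S hS) (hT' S hS) (scHom τ S) (hs S.X₁ hK) (hL n).1
          (ih (n + 1) (by omega) S.X₁ hK).1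
      · exact surj_right c (hT S hS) (hT' S hS) (scHom τ S) (hL n).2
            (ih (n + 1) (by omega) S.X₁ hK).2 (hL (n + 1)).1
  exact key (N + 1) n (by omega) M hM

include hT hT' in
/-- Ascending induction: if every `M` in the class `Q` embeds into an object for which the
comparison map is bijective, with cokernel in `Q`, then the comparison map is bijective for all
objects of `Q`.  (No vanishing is needed.) -/
theorem bijective_of_ascending (Q : C → Prop)
    (hres : ∀ M, Q M → ∃ S : ShortComplex C, S.ShortExact ∧ Nonempty (S.X₁ ≅ M) ∧ Q S.X₃ ∧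
      ∀ n, Function.Bijective (cmp P c (τ.app S.X₂) n))
    (M : C) (hM : Q M) (n : ℕ) : Function.Bijective (cmp P c (τ.app M) n) := by
  have hinj : ∀ n, ∀ M, Q M → Function.Injective (cmp P c (τ.app M) n) := by
    intro n
    induction n with
    | zero =>
      intro M hM
      obtain ⟨S, hS, ⟨e⟩, hK, hL⟩ := hres M hM
      refine injective_of_iso c (τ.app S.X₁) (τ.app M) (T.mapIso e) (T'.mapIso e)
        (τ.naturality e.hom) ?_
      exact inj_left_zero c (hT S hS) (scHom τ S) (hL 0).1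
    | succ n ih =>
      intro M hM
      obtain ⟨S, hS, ⟨e⟩, hK, hL⟩ := hres M hM
      refine injective_of_iso c (τ.app S.X₁) (τ.app M) (T.mapIso e) (T'.mapIso e)
        (τ.naturality e.hom) ?_
      exact inj_left_succ c (hT S hS) (hT' S hS) (scHom τ S) (hL n).2 (ih _ hK) (hL (n + 1)).1
  have hsurj : ∀ n, ∀ M, Q M → Function.Surjective (cmp P c (τ.app M) n) := by
    intro n
    induction n with
    | zero =>
      intro M hM
      obtain ⟨S, hS, ⟨e⟩, hK, hL⟩ := hres M hM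
      refine surjective_of_iso c (τ.app S.X₁) (τ.app M) (T.mapIso e) (T'.mapIso e)
        (τ.naturality e.hom) ?_
      exact surj_left_zero c (hT S hS) (hT' S hS) (scHom τ S) (hL 0).2 (hinj 0 _ hK)
    | succ n ih =>
      intro M hM
      obtain ⟨S, hS, ⟨e⟩, hK, hL⟩ := hres M hM
      refine surjective_of_iso c (τ.app S.X₁) (τ.app M) (T.mapIso e) (T'.mapIso e)
        (τ.naturality e.hom) ?_
      exact surj_left_succ c (hT S hS) (hT' S hS) (scHom τ S) (ih _ hK) (hL (n + 1)).2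
        (hinj (n + 1) _ hK)
  exact ⟨hinj n M hM, hsurj n M hM⟩

end functorial

end Groth.Agent.Gaga.H977.ExtCmp
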