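import Groth.Agent.Gaga.H977.GagaNat
import Groth.Agent.Gaga.H977.CanAcyc

/-!
# `gagaH` as a canonical map `canT`, and compatibility with direct images

* `gagaH_eq_canT : gagaH X M n = canT (ptTop X) (toPushAnAb M) n`.
-/

set_option autoImplicit false

noncomputable section

open AlgebraicGeometry CategoryTheory CategoryTheory.Limits CategoryTheory.Abelian TopologicalSpace
  Opposite Topology

namespace Groth.Agent.Gaga.H977.GagaCan

open An Groth.Agent.Gaga.H977.GagaNat Groth.Agent.Gaga.H977.CmpComp Groth.Agent.Gaga.H977.CanTop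
  Groth.Agent.Gaga.H977.CanAcyc Groth.Agent.CohtopA.PushClosed Groth.Agent.CohtopB.TopPull

variable {X : Scheme.{0}} [X.Over SC]

lemma pullConstIsoTop_hom_app : (pullConstIsoTop X).hom.app (AddCommGrpCat.of (ULift.{0} ℤ)) =
    pullConst (ptTop X) := by
  have h := Adjunction.homEquiv_leftAdjointUniq_hom_app
    (((constAdjTop (X : TopCat.{0})).comp (pullPushAdjAb X)).ofNatIsoRight (pushGsecIsoTop X))
    (constAdjTop (top X)) (AddCommGrpCat.of (ULift.{0} ℤ))
  apply ((((constAdjTop (X : TopCat.{0})).comp (pullPushAdjAb X)).ofNatIsoRight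
    (pushGsecIsoTop X)).homEquiv _ _).injective
  refine h.trans ?_
  rw [Adjunction.homEquiv_ofNatIsoRight_apply]
  have h1 : (pushGsecIsoTop X).hom.app (ZZ (top X)) = 𝟙 ((gsecTop (top X)).obj (ZZ (top X))) := rfl
  have h2 : ((pullPushAdjAb X).homEquiv _ _) (pullConst (ptTop X)) = constHom (ptTop X) :=
    Equiv.apply_symm_apply _ _
  have h3 : homZZ ((CohTop.push (ptTop X)).obj (ZZ (top X))) (constHom (ptTop X)) =
      homZZ (ZZ (top X)) (𝟙 _) :=
    Equiv.apply_symm_apply _ _
  have h4 : homZZ (ZZ (top X)) (𝟙 _) = (constAdjTop (top X)).unit.app (AddCommGrpCat.of (ULift.{0} ℤ)) := by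
    refine ((constAdjTop (top X)).homEquiv_unit _ _ _).trans ?_
    rw [CategoryTheory.Functor.map_id]
    exact Category.comp_id _
  rw [Adjunction.comp_homEquiv]
  refine Eq.symm ?_
  refine (Category.comp_id _).trans ?_
  refine Eq.trans ?_ (h3.trans h4)
  exact congrArg (fun t => homZZ ((CohTop.push (ptTop X)).obj (ZZ (top X))) t) h2

lemma gagaC_eq : gagaC X = inv (pullConst (ptTop X)) := by
  apply (IsIso.inv_eq_of_hom_inv_id _).symm
  rw [← pullConstIsoTop_hom_app]
  exact (pullConstIsoTop X).hom_inv_id_app _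

set_option backward.isDefEq.respectTransparency.types false in
/-- `gagaH` is the canonical map attached to `M → φ_* M^an`. -/
theorem gagaH_eq_canT (M : X.Modules) (n : ℕ) :
    ⇑(gagaH X M n) = ⇑(canT (ptTop X) (F := AnMod.toAb ((analytify X).obj M))
      (G := (toAbX X).obj M) (toPushAnAb M) n) := by
  rw [gagaH_eq_cmp]
  funext e
  unfold canT can
  have h : gagaC X = @inv _ _ _ _ (((adj (ptTop X)).homEquiv (ZZ _) (ZZ _)).symm (constHom (ptTop X)))
      (inferInstanceAs (IsIso (pullConst (ptTop X)))) := gagaC_eq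
  rw [h]
  rfl

end Groth.Agent.Gaga.H977.GagaCan
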