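import Groth.Prelude.Def_AnHol
import Groth.Agent.Gaga.H977.ExtCmp
import Groth.Agent.CohqB.ToSheafExact
import Groth.Agent.CohtopA.ModExt

/-!
# Naturality of the comparison map `An.gagaH`, and its compatibility with connecting maps
-/

set_option autoImplicit false

noncomputable section

open AlgebraicGeometry CategoryTheory CategoryTheory.Limits TopologicalSpace Opposite Topology

namespace Groth.Agent.Gaga.H977.GagaNat

open An

variable {X : Scheme.{0}} [X.Over SC]

/-- The functor "underlying abelian sheaf" on `O_X`-modules. -/
abbrev toAbX (X : Scheme.{0}) : X.Modules ⥤ Sheaf (Opens.grothendieckTopology (X : TopCat.{0})) AddCommGrpCat.{0} :=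
  SheafOfModules.toSheaf X.ringCatSheaf

/-- The functor "underlying abelian sheaf" on `O_{X^an}`-modules. -/
abbrev toAbA (X : Scheme.{0}) [X.Over SC] : AnMod X ⥤ Sheaf (Opens.grothendieckTopology (top X)) AddCommGrpCat.{0} :=
  SheafOfModules.toSheaf (holRing X)

set_option backward.isDefEq.respectTransparency.types false in
lemma toPushAnAb_naturality {M N : X.Modules} (f : M ⟶ N) :
    (toAbX X).map f ≫ toPushAnAb N =
      toPushAnAb M ≫ (pushAb X).map ((toAbA X).map ((analytify X).map f)) := by
  unfold toPushAnAb
  have h := (analytifyAdj X).unit.naturality f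
  have h2 := congrArg (fun t => (toAbX X).map t) h
  simp only [Functor.map_comp] at h2
  exact h2

set_option backward.isDefEq.respectTransparency.types false in
lemma pullAbToAn_naturality {M N : X.Modules} (f : M ⟶ N) :
    (pullAb X).map ((toAbX X).map f) ≫ pullAbToAn N =
      pullAbToAn M ≫ (toAbA X).map ((analytify X).map f) := by
  unfold pullAbToAn
  rw [← Adjunction.homEquiv_naturality_left_symm, toPushAnAb_naturality,
    Adjunction.homEquiv_naturality_right_symm]

set_option backward.isDefEq.respectTransparency.types false in
/-- `pullAbToAn` as a natural transformation `toAb ⋙ φ⁻¹ ⟶ analytify ⋙ toAb`. -/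
def pullAbToAnNat (X : Scheme.{0}) [X.Over SC] : toAbX X ⋙ pullAb X ⟶ analytify X ⋙ toAbA X where
  app M := pullAbToAn M
  naturality _ _ f := pullAbToAn_naturality f

/-- The map of coefficient objects used in `gagaH`. -/
abbrev gagaC (X : Scheme.{0}) [X.Over SC] :
    (constantSheaf (Opens.grothendieckTopology (top X)) AddCommGrpCat.{0}).obj
      (AddCommGrpCat.of (ULift ℤ)) ⟶
    (pullAb X).obj ((constantSheaf (Opens.grothendieckTopology (X : TopCat.{0})) AddCommGrpCat.{0}).obj
      (AddCommGrpCat.of (ULift ℤ))) :=
  ((pullConstIsoTop X).app (AddCommGrpCat.of (ULift ℤ))).inv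

set_option backward.isDefEq.respectTransparency.types false in
lemma gagaH_eq_cmp (M : X.Modules) (n : ℕ) :
    gagaH X M n = ExtCmp.cmp (pullAb X) (gagaC X) (pullAbToAn M) n := rfl

section exact

variable (X)

set_option backward.isDefEq.respectTransparency.types false in
instance anPush_additive : (anPush X).Additive where
  map_add := rfl

set_option backward.isDefEq.respectTransparency.types false in
/-- Analytification is additive. -/
instance analytify_additive : (analytify X).Additive := (analytifyAdj X).left_adjoint_additive

set_option backward.isDefEq.respectTransparency.types false in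
instance analytify_preservesFiniteColimits : PreservesFiniteColimits (analytify X) :=
  have : PreservesColimitsOfSize.{0, 0} (analytify X) := (analytifyAdj X).leftAdjoint_preservesColimits
  PreservesColimitsOfSize.preservesFiniteColimits _

instance toAbA_preservesFiniteColimits : PreservesFiniteColimits (toAbA X) :=
  Groth.Agent.CohtopA.ModExt.toSheaf_preservesFiniteColimits (holRing X)

instance toAbX_preservesFiniteColimits : PreservesFiniteColimits (toAbX X) :=
  Groth.Agent.CohqB.ToSheafExact.preservesFiniteColimits_toAbF X

instance toAbX_preservesFiniteLimits : PreservesFiniteLimits (toAbX X) :=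
  Groth.Agent.CohqB.ToSheafExact.preservesFiniteLimits_toAbF X

instance toAbX_additive : (toAbX X).Additive :=
  Groth.Agent.CohqB.ToSheafExact.additive_toAbF X

variable {X}

omit [X.Over SC] in
lemma shortExact_toAbX (S : ShortComplex X.Modules) (hS : S.ShortExact) :
    (S.map (toAbX X)).ShortExact := hS.map_of_exact _

lemma shortExact_toAbA_analytify [PreservesFiniteLimits (analytify X)]
    (S : ShortComplex X.Modules) (hS : S.ShortExact) :
    (S.map (analytify X ⋙ toAbA X)).ShortExact := by
  have : PreservesFiniteLimits (analytify X ⋙ toAbA X) := comp_preservesFiniteLimits _ _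
  have : PreservesFiniteColimits (analytify X ⋙ toAbA X) := comp_preservesFiniteColimits _ _
  exact hS.map_of_exact _

end exact

/-- `M` satisfies GAGA for cohomology: all comparison maps `gagaH X M n` are bijective. -/
def Good (M : X.Modules) : Prop := ∀ n, Function.Bijective (gagaH X M n)

lemma good_iff (M : X.Modules) : Good M ↔
    ∀ n, Function.Bijective (ExtCmp.cmp (pullAb X) (gagaC X) ((pullAbToAnNat X).app M) n) := by
  unfold Good
  refine forall_congr' fun n => ?_
  rw [gagaH_eq_cmp]
  exact Iff.rfl

lemma Good.of_iso {M N : X.Modules} (e : M ≅ N) (h : Good M) : Good N := by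
  rw [good_iff] at h ⊢
  exact fun n => ExtCmp.functorial_bij_iso (pullAbToAnNat X) (gagaC X) e n (h n)

section twoOutOfThree

variable [PreservesFiniteLimits (analytify X)] {S : ShortComplex X.Modules} (hS : S.ShortExact)

include hS

/-- Two out of three for GAGA in a short exact sequence: the middle term. -/
lemma good_mid (h1 : Good S.X₁) (h3 : Good S.X₃) : Good S.X₂ := by
  rw [good_iff] at h1 h3 ⊢
  exact ExtCmp.functorial_bij_mid (pullAbToAnNat X) (gagaC X) shortExact_toAbX
    shortExact_toAbA_analytify S hS h1 h3

/-- Two out of three for GAGA in a short exact sequence: the quotient. -/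
lemma good_right (h1 : Good S.X₁) (h2 : Good S.X₂) : Good S.X₃ := by
  rw [good_iff] at h1 h2 ⊢
  exact ExtCmp.functorial_bij_right (pullAbToAnNat X) (gagaC X) shortExact_toAbX
    shortExact_toAbA_analytify S hS h1 h2

/-- Two out of three for GAGA in a short exact sequence: the subobject. -/
lemma good_left (h2 : Good S.X₂) (h3 : Good S.X₃) : Good S.X₁ := by
  rw [good_iff] at h2 h3 ⊢
  exact ExtCmp.functorial_bij_left (pullAbToAnNat X) (gagaC X) shortExact_toAbX
    shortExact_toAbA_analytify S hS h2 h3

end twoOutOfThree

lemma good_of_isZero {M : X.Modules} (hM : IsZero M) : Good M := by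
  rw [good_iff]
  intro n
  exact ExtCmp.bijective_of_isZero (gagaC X) _ n ((toAbX X).map_isZero hM)
    ((analytify X ⋙ toAbA X).map_isZero hM)

/-- Ascending induction: if every `M` in a class `Q` embeds into a good object with cokernel in
`Q`, then all objects of `Q` are good. -/
theorem good_of_ascending [PreservesFiniteLimits (analytify X)] (Q : X.Modules → Prop)
    (hres : ∀ M, Q M → ∃ S : ShortComplex X.Modules, S.ShortExact ∧ Nonempty (S.X₁ ≅ M) ∧
      Q S.X₃ ∧ Good S.X₂) (M : X.Modules) (hM : Q M) : Good M := by
  rw [good_iff]
  refine ExtCmp.bijective_of_ascending (pullAbToAnNat X) (gagaC X) shortExact_toAbX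
    shortExact_toAbA_analytify Q (fun M hM => ?_) M hM
  obtain ⟨S, h1, h2, h3, h4⟩ := hres M hM
  exact ⟨S, h1, h2, h3, (good_iff _).1 h4⟩

end Groth.Agent.Gaga.H977.GagaNat
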