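import Groth.Agent.Gaga.H977.GagaCan

/-!
# GAGA and direct images

`f : X ⟶ Y` over `ℂ`, `M` an `O_X`-module with `R^q f_* M = 0`, `R^q f^an_* M^an = 0` (`q ≥ 1`) and
`(f_* M)^an ≅ f^an_* M^an`: then `M` satisfies GAGA iff `f_* M` does.
-/

set_option autoImplicit false

noncomputable section

open AlgebraicGeometry CategoryTheory CategoryTheory.Limits CategoryTheory.Abelian TopologicalSpace
  Opposite Topology

namespace Groth.Agent.Gaga.H977.GagaPush

open An Groth.Agent.Gaga.H977.GagaNat Groth.Agent.Gaga.H977.CmpComp Groth.Agent.Gaga.H977.CanTop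
  Groth.Agent.Gaga.H977.CanAcyc Groth.Agent.Gaga.H977.GagaCan
  Groth.Agent.CohtopA.PushClosed Groth.Agent.CohtopB.TopPull

variable {X Y : Scheme.{0}} [X.Over SC] [Y.Over SC] (f : X ⟶ Y) [f.IsOver SC]

set_option backward.isDefEq.respectTransparency.types false in
lemma pushCompIso_toAb (N : AnMod X) :
    (toAbX Y).map ((pushCompIso f).hom.app N) =
      𝟙 ((toAbX Y).obj ((pushMod f).obj ((anPush X).obj N))) := by
  apply Sheaf.hom_ext
  ext V m
  rfl

set_option backward.isDefEq.respectTransparency.types false in
/-- The defining property of the base change map, on underlying abelian sheaves. -/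
lemma toPushAnAb_comp_bc (M : X.Modules) :
    toPushAnAb ((pushMod f).obj M) ≫ (pushAb Y).map ((toAbA Y).map (anBaseChange f M)) =
      (toAbX Y).map ((pushMod f).map ((analytifyAdj X).unit.app M)) := by
  have h1 : (analytifyAdj Y).unit.app ((pushMod f).obj M) ≫ (anPush Y).map (anBaseChange f M) =
      (pushMod f).map ((analytifyAdj X).unit.app M) ≫
        (pushCompIso f).hom.app ((analytify X).obj M) := by
    refine ((analytifyAdj Y).homEquiv_unit _ _ _).symm.trans ?_
    exact Equiv.apply_symm_apply _ _
  have h2 := congrArg (fun t => (toAbX Y).map t) h1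
  simp only [Functor.map_comp] at h2
  rw [pushCompIso_toAb] at h2
  exact h2.trans (Category.comp_id _)

set_option backward.isDefEq.respectTransparency.types false in
/-- The underlying abelian sheaf of `f_* M` is the direct image of that of `M`. -/
abbrev idPush (M : X.Modules) : (toAbX Y).obj ((pushMod f).obj M) ⟶
    (CohTop.push (X := (X : TopCat.{0})) (Y := (Y : TopCat.{0})) f.base).obj ((toAbX X).obj M) :=
  𝟙 ((toAbX Y).obj ((pushMod f).obj M))

set_option backward.isDefEq.respectTransparency.types false in
/-- The base change map, as a map to the direct image of the abelian sheaf of `M^an`. -/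
abbrev bcAb (M : X.Modules) : AnMod.toAb ((analytify Y).obj ((pushMod f).obj M)) ⟶
    (CohTop.push (topMap f)).obj (AnMod.toAb ((analytify X).obj M)) :=
  (toAbA Y).map (anBaseChange f M)

set_option backward.isDefEq.respectTransparency.types false in
theorem square (M : X.Modules) (n : ℕ) (e : CohTop.H ((toAbX Y).obj ((pushMod f).obj M)) n) :
    canT (topMap f) (bcAb f M) n (canT (ptTop Y) (toPushAnAb ((pushMod f).obj M)) n e) =
      canT (ptTop X) (toPushAnAb M) n (canT f.base (idPush f M) n e) := by
  have h := toPushAnAb_comp_bc f M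
  have h2 : toPushAnAb ((pushMod f).obj M) ≫ (CohTop.push (ptTop Y)).map (bcAb f M) =
      idPush f M ≫ (CohTop.push f.base).map (toPushAnAb M) :=
    h.trans (Category.id_comp _).symm
  refine (canT_comp (topMap f) (ptTop Y) (bcAb f M) (toPushAnAb ((pushMod f).obj M)) n e).trans ?_
  refine Eq.trans ?_ (canT_comp (ptTop X) f.base (toPushAnAb M) (idPush f M) n e).symm
  exact congrArg (fun t => canT (topMap f ≫ ptTop Y) (F := AnMod.toAb ((analytify X).obj M))
    (G := (toAbX Y).obj ((pushMod f).obj M)) t n e) h2

set_option backward.isDefEq.respectTransparency.types false in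
theorem square' (M : X.Modules) (n : ℕ) :
    ⇑(canT (topMap f) (bcAb f M) n) ∘ ⇑(gagaH Y ((pushMod f).obj M) n) =
      ⇑(gagaH X M n) ∘ ⇑(canT f.base (idPush f M) n) := by
  rw [gagaH_eq_canT, gagaH_eq_canT]
  funext e
  exact square f M n e

set_option backward.isDefEq.respectTransparency.types false in
/-- GAGA for `M` and for `f_* M` are equivalent, degree by degree, if the higher direct images of
`M` and of `M^an` vanish and the base change map `(f_* M)^an → f^an_* M^an` is an isomorphism. -/
theorem bijective_push_iff (M : X.Modules)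
    (h1 : LocAcyc (X := (X : TopCat.{0})) (Y := (Y : TopCat.{0})) f.base ((toAbX X).obj M))
    (h2 : LocAcyc (topMap f) (AnMod.toAb ((analytify X).obj M)))
    (h3 : IsIso (anBaseChange f M)) (n : ℕ) :
    Function.Bijective (gagaH Y ((pushMod f).obj M) n) ↔ Function.Bijective (gagaH X M n) := by
  have hA : Function.Bijective (canT (topMap f) (bcAb f M) n) := by
    have : IsIso (bcAb f M) := inferInstanceAs (IsIso ((toAbA Y).map (anBaseChange f M)))
    exact canT_bijective_of_isIso (topMap f) (bcAb f M) h2 n
  have hB : Function.Bijective (canT (X := (X : TopCat.{0})) (Y := (Y : TopCat.{0})) f.base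
      (idPush f M) n) :=
    canT_bijective (X := (X : TopCat.{0})) (Y := (Y : TopCat.{0})) f.base ((toAbX X).obj M) h1 n
  have key := square' f M n
  constructor
  · intro h
    have h5 : Function.Bijective (⇑(gagaH X M n) ∘ ⇑(canT (X := (X : TopCat.{0}))
      (Y := (Y : TopCat.{0})) f.base (idPush f M) n)) := by
      rw [← key]
      exact hA.comp h
    exact (Function.Bijective.of_comp_iff _ hB).1 h5
  · intro h
    have h5 : Function.Bijective (⇑(canT (topMap f) (bcAb f M) n) ∘
        ⇑(gagaH Y ((pushMod f).obj M) n)) := by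
      rw [key]
      exact h.comp hB
    exact (Function.Bijective.of_comp_iff' hA _).1 h5

set_option backward.isDefEq.respectTransparency.types false in
theorem good_push_iff (M : X.Modules)
    (h1 : LocAcyc (X := (X : TopCat.{0})) (Y := (Y : TopCat.{0})) f.base ((toAbX X).obj M))
    (h2 : LocAcyc (topMap f) (AnMod.toAb ((analytify X).obj M)))
    (h3 : IsIso (anBaseChange f M)) :
    Good ((pushMod f).obj M) ↔ Good M :=
  forall_congr' fun n => bijective_push_iff f M h1 h2 h3 n

end Groth.Agent.Gaga.H977.GagaPush
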