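import Groth.Agent.CohtopA.ExtAdj
import Groth.Agent.CohtopA.FreeYo
import Groth.Agent.CohtopA.Flasque
import Groth.Agent.CohtopB.TopPull
import Groth.Agent.Gaga.H41.Ind

/-!
# Restriction of sheaves along open embeddings and germs of cohomology classes

`opnRes g`: restriction of abelian sheaves along an open embedding `g : T' ⟶ T` (sections over `V` are
sections over `g(V)`); `H^n(g(V), F) ≅ H^n(V, F|)` compatibly with restrictions.
-/

set_option autoImplicit false
universe u

open CategoryTheory Limits Opposite Abelian TopologicalSpace Topology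

noncomputable section

namespace Groth.Agent.Gaga.H977.OpenRes

open Groth.Agent.CohtopA.ExtAdj Groth.Agent.CohtopA.FreeYo Groth.Agent.Gaga.H41.Ind

variable {T' T : TopCat.{u}} (g : T' ⟶ T) [hg : Fact (IsOpenEmbedding g)]

/-- The image functor on opens. -/
abbrev imO : Opens T' ⥤ Opens T := hg.out.isOpenMap.functor

instance isContinuous_imO : (imO g).IsContinuous (Opens.grothendieckTopology T')
    (Opens.grothendieckTopology T) := hg.out.functor_isContinuous

/-- Restriction of abelian sheaves along an open embedding. -/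
abbrev opnRes : CohTop.Ab T ⥤ CohTop.Ab T' :=
  (imO g).sheafPushforwardContinuous AddCommGrpCat.{u} (Opens.grothendieckTopology T')
    (Opens.grothendieckTopology T)

/-- Restriction along an open embedding is left adjoint to direct image. -/
def resAdj : opnRes g ⊣ CohTop.push g :=
  Adjunction.sheafPushforwardContinuous (E := AddCommGrpCat.{u}) hg.out.isOpenMap.adjunction
    (Opens.grothendieckTopology T') (Opens.grothendieckTopology T)

instance : (opnRes g).Additive where

instance : PreservesFiniteColimits (opnRes g) :=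
  have : PreservesColimitsOfSize.{0, 0} (opnRes g) := (resAdj g).leftAdjoint_preservesColimits
  PreservesColimitsOfSize.preservesFiniteColimits _

instance : PreservesFiniteLimits (opnRes g) :=
  have : PreservesLimitsOfSize.{0, 0} (opnRes g) :=
    (Adjunction.ofIsRightAdjoint (opnRes g)).rightAdjoint_preservesLimits
  PreservesLimitsOfSize.preservesFiniteLimits _

/-- The generator of the free sheaf on `g(V)`, seen on `T'`. -/
def cgen (V : Opens T') : freeSh (Opens.grothendieckTopology T') V ⟶
    (opnRes g).obj (freeSh (Opens.grothendieckTopology T) ((imO g).obj V)) :=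
  (homEquiv (Opens.grothendieckTopology T') V _).symm
    (gen (Opens.grothendieckTopology T) ((imO g).obj V))

lemma homEquiv_cgen (V : Opens T') : homEquiv (Opens.grothendieckTopology T') V _ (cgen g V) =
    gen (Opens.grothendieckTopology T) ((imO g).obj V) :=
  AddEquiv.apply_symm_apply _ _

lemma cgen_bijective (V : Opens T') (F : CohTop.Ab T) : Function.Bijective
    (fun (f : freeSh (Opens.grothendieckTopology T) ((imO g).obj V) ⟶ F) =>
      cgen g V ≫ (opnRes g).map f) := by
  have h1 : (homEquiv (Opens.grothendieckTopology T') V ((opnRes g).obj F)) ∘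
      (fun (f : freeSh (Opens.grothendieckTopology T) ((imO g).obj V) ⟶ F) =>
        cgen g V ≫ (opnRes g).map f) =
      homEquiv (Opens.grothendieckTopology T) ((imO g).obj V) F := by
    funext f
    simp only [Function.comp]
    rw [homEquiv_comp, homEquiv_cgen]
    rfl
  refine (Function.Bijective.of_comp_iff'
    (homEquiv (Opens.grothendieckTopology T') V ((opnRes g).obj F)).bijective _).1 ?_
  rw [h1]
  exact (homEquiv _ _ F).bijective

lemma isFlasque_opnRes (F : CohTop.Ab T) [hF : TopCat.Sheaf.IsFlasque F] :
    TopCat.Sheaf.IsFlasque ((opnRes g).obj F) where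
  epi {U V} i := hF.epi ((imO g).map i.unop).op

/-- `H^n(g(V), F) → H^n(V, F|)`. -/
def hmap (V : Opens T') (F : CohTop.Ab T) (n : ℕ) :
    CohTop.HU F n ((imO g).obj V) →+ CohTop.HU ((opnRes g).obj F) n V :=
  extOfHom (opnRes g) (cgen g V) F n

theorem hmap_bijective (V : Opens T') (F : CohTop.Ab T) (n : ℕ) :
    Function.Bijective (hmap g V F n) :=
  extOfHom_bijective (opnRes g) (cgen g V) (cgen_bijective g V)
    (fun I _ n => by
      have := CohtopA.Flasque.isFlasque_of_injective I
      have := isFlasque_opnRes g I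
      exact CohtopA.Flasque.subsingleton_HU_succ ((opnRes g).obj I) V n) F n

theorem hmap_res {V W : Opens T'} (h : V ≤ W) (F : CohTop.Ab T) (n : ℕ)
    (x : CohTop.HU F n ((imO g).obj W)) :
    hmap g V F n (CohTop.res F n (U := (imO g).obj W) (V := (imO g).obj V)
        ((imO g).map (homOfLE h)).le x) =
      CohTop.res _ n h (hmap g W F n x) := by
  refine extOfHom_precomp (opnRes g) (cgen g W) (cgen g V)
    ((freeShF (Opens.grothendieckTopology T')).map (homOfLE h))
    ((freeShF (Opens.grothendieckTopology T)).map ((imO g).map (homOfLE h))) ?_ x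
  apply (homEquiv (Opens.grothendieckTopology T') V _).injective
  rw [homEquiv_precomp, homEquiv_comp, homEquiv_cgen, homEquiv_cgen]
  exact (gen_map (Opens.grothendieckTopology T) ((imO g).map (homOfLE h))).symm

/-- Germs of cohomology along `K ⊆ g(T')` can be computed on `T'`. -/
theorem indZero_of_opnRes {F : CohTop.Ab T} {K : Set T} (hK : K ⊆ Set.range g) {q : ℕ}
    (h : IndZero ((opnRes g).obj F) (g ⁻¹' K) q) : IndZero F K q := by
  intro U hU a
  let V : Opens T' := (Opens.map g).obj U
  have hV : (imO g).obj V ≤ U := by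
    rintro _ ⟨x, hx, rfl⟩
    exact hx
  obtain ⟨W, hWV, hKW, hW⟩ := h V (fun x hx => hU hx)
    (hmap g V F q (CohTop.res F q hV a))
  refine ⟨(imO g).obj W, (((imO g).map (homOfLE hWV)).le).trans hV, ?_, ?_⟩
  · intro x hx
    obtain ⟨y, rfl⟩ := hK hx
    exact ⟨y, hKW hx, rfl⟩
  · apply (hmap_bijective g W F q).injective
    rw [map_zero, ← hW, ← hmap_res, Groth.Agent.CohtopA.MVElem.res_res]

/-- The converse of `indZero_of_opnRes`. -/
theorem indZero_opnRes {F : CohTop.Ab T} {K : Set T} (hK : K ⊆ Set.range g) {q : ℕ}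
    (h : IndZero F K q) : IndZero ((opnRes g).obj F) (g ⁻¹' K) q := by
  intro U hU a
  obtain ⟨b, rfl⟩ := (hmap_bijective g U F q).surjective a
  obtain ⟨W, hWU, hKW, hW⟩ := h ((imO g).obj U) (fun x hx => by
    obtain ⟨y, rfl⟩ := hK hx
    exact ⟨y, hU hx, rfl⟩) b
  have h1 : (imO g).obj ((Opens.map g).obj W) ≤ W := by
    rintro _ ⟨x, hx, rfl⟩
    exact hx
  have h2 : (Opens.map g).obj W ≤ U := by
    intro x hx
    obtain ⟨y, hy, hxy⟩ := hWU hx
    rwa [← hg.out.injective hxy]
  refine ⟨(Opens.map g).obj W, h2, fun x hx => hKW hx, ?_⟩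
  rw [← hmap_res, ← Groth.Agent.CohtopA.MVElem.res_res F q hWU h1, hW, map_zero, map_zero]

end Groth.Agent.Gaga.H977.OpenRes
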