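import Groth.Agent.Gaga.H977.TopLoc
import Groth.Agent.Gaga.H977.GagaPush
import Groth.Agent.Gaga.H277.ClosedMod
import Groth.Agent.Gaga.H277.AnRestr
import Groth.Agent.Ega3A.PChart
import Groth.Agent.Sga67.ClosedTens
import Groth.Agent.Sga67.TwistOver
import Groth.Agent.Gaga.H364.ProjRed
import Groth.Agent.Ega2.Tens

/-!
# Acyclicity of `N(k)^an` along the fibres of `P^n_X ⟶ X`: reduction to `P^n_R`, `R` polynomial
-/

set_option autoImplicit false

noncomputable section

open AlgebraicGeometry CategoryTheory CategoryTheory.Limits TopologicalSpace Opposite Topology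

namespace Groth.Agent.Gaga.H977.RelAcyc

open Groth.Agent.Gaga.H41.Ind Groth.Agent.Gaga.H977.CanAcyc Groth.Agent.Gaga.H977.OpenRes
  Groth.Agent.Gaga.H977.TopLoc Groth.Agent.Gaga.H277.OpenHol Groth.Agent.Gaga.H277.AnRestr
  Groth.Agent.Gaga.H977.GagaNat Groth.Agent.Gaga.H977.GagaPush

section restr

variable {X Y : Scheme.{0}} [X.Over An.SC] [Y.Over An.SC] (j : X ⟶ Y) [j.IsOver An.SC]
  [IsOpenImmersion j]

instance fact_map : Fact (IsOpenEmbedding (An.topMap j)) := ⟨isOpenEmbedding j⟩

lemma toAb_anRestrict (N : An.AnMod Y) : An.AnMod.toAb ((anRestrict j).obj N) =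
    (opnRes (An.topMap j)).obj (An.AnMod.toAb N) := rfl

/-- Germs of cohomology of `M^an` computed on an open subscheme. -/
theorem indZero_of_restrict (M : Y.Modules) {K : Set (An.top Y)}
    (hK : K ⊆ Set.range (An.topMap j)) {q : ℕ}
    (h : IndZero (An.AnMod.toAb ((An.analytify X).obj (M.restrict j))) (An.topMap j ⁻¹' K) q) :
    IndZero (An.AnMod.toAb ((An.analytify Y).obj M)) K q := by
  apply indZero_of_opnRes (An.topMap j) hK
  rw [← toAb_anRestrict]
  exact h.congr ((toAbA X).mapIso ((restrIso j).app M).symm)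

end restr

section closed

variable {Z X : Scheme.{0}} [Z.Over An.SC] [X.Over An.SC] (i : Z ⟶ X) [i.IsOver An.SC]
  [IsClosedImmersion i] [LocallyOfFiniteType (X ↘ An.SC)] [LocallyOfFiniteType (Z ↘ An.SC)]
  [IsReduced X] [IsReduced Z]

/-- Germs of cohomology of `M^an` computed after a closed immersion. -/
theorem indZero_of_pushMod (E : Z.Modules) {K : Set (An.top X)} {q : ℕ}
    (h : IndZero (An.AnMod.toAb ((An.analytify X).obj ((An.pushMod i).obj E))) K q) :
    IndZero (An.AnMod.toAb ((An.analytify Z).obj E)) (An.topMap i ⁻¹' K) q := by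
  have h1 := Groth.Agent.Gaga.H277.ClosedMod.isIso_anBaseChange i E
  have h2 : IsIso (bcAb i E) := inferInstanceAs (IsIso ((toAbA X).map (An.anBaseChange i E)))
  exact indZero_of_push (An.topMap i) (Groth.Agent.An.H871.Imm.isClosedEmbedding_map i) _
    (h.congr (asIso (bcAb i E)))

end closed

section transfer

open Groth.Agent.Ega3A.PChart Groth.Agent.CohqB.ProjBC

section alg

variable (n : ℕ) {A R : Type} [CommRing A] [CommRing R] (φ : R →+* A)

/-- `P^n_A ⟶ P^n_R` is a closed immersion for `R → A` surjective. -/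
theorem isClosedImmersion_pmap (hφ : Function.Surjective φ) : IsClosedImmersion (pmap φ n) := by
  have : IsClosedImmersion (Spec.map (CommRingCat.ofHom φ)) :=
    IsClosedImmersion.spec_of_surjective _ hφ
  exact MorphismProperty.of_isPullback (P := @IsClosedImmersion) (isPullback_pmap φ n).flip this

/-- Projection formula, first step. -/
def e1 [IsClosedImmersion (pmap φ n)] (E : (CohB1.ProjSpace n A).Modules) (k : ℤ) :
    ((DCoh.tensorBi (X := CohB1.ProjSpace n R)).obj
      ((Scheme.Modules.pushforward (pmap φ n)).obj E)).obj (Twist.twistProjSpace n R k) ≅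
    (Scheme.Modules.pushforward (pmap φ n)).obj
      (((DCoh.tensorBi (X := CohB1.ProjSpace n A)).obj E).obj
        ((Scheme.Modules.pullback (pmap φ n)).obj (Twist.twistProjSpace n R k))) :=
  (Groth.Agent.Sga67.ClosedTens.closedTensIso (pmap φ n) E).app (Twist.twistProjSpace n R k)

/-- Projection formula, second step. -/
def e2 (E : (CohB1.ProjSpace n A).Modules) (k : ℤ) :
    (((DCoh.tensorBi (X := CohB1.ProjSpace n A)).obj E).obj
      ((Scheme.Modules.pullback (pmap φ n)).obj (Twist.twistProjSpace n R k))) ≅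
    (((DCoh.tensorBi (X := CohB1.ProjSpace n A)).obj E).obj (Twist.twistProjSpace n A k)) :=
  ((DCoh.tensorBi (X := CohB1.ProjSpace n A)).obj E).mapIso (pullTwistIso φ n k)

/-- Projection formula `(c_* E)(k) ≅ c_*(E(k))` for `c : P^n_A ⟶ P^n_R`, `R → A` surjective. -/
def e3 [IsClosedImmersion (pmap φ n)] (E : (CohB1.ProjSpace n A).Modules) (k : ℤ) :
    ((DCoh.tensorBi (X := CohB1.ProjSpace n R)).obj
      ((Scheme.Modules.pushforward (pmap φ n)).obj E)).obj (Twist.twistProjSpace n R k) ≅
    (Scheme.Modules.pushforward (pmap φ n)).obj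
      (((DCoh.tensorBi (X := CohB1.ProjSpace n A)).obj E).obj (Twist.twistProjSpace n A k)) :=
  e1 n φ E k ≪≫ (Scheme.Modules.pushforward (pmap φ n)).mapIso (e2 n φ E k)

theorem nonempty_pushTwist (hφ : Function.Surjective φ) (E : (CohB1.ProjSpace n A).Modules)
    (k : ℤ) : Nonempty (CohB1.tensorMod ((Scheme.Modules.pushforward (pmap φ n)).obj E)
      (Twist.twistProjSpace n R k) ≅ (Scheme.Modules.pushforward (pmap φ n)).obj
        (CohB1.tensorMod E (Twist.twistProjSpace n A k))) := by
  have := isClosedImmersion_pmap n φ hφ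
  exact ⟨e3 n φ E k⟩

end alg

section chart

variable (n : ℕ) {A : Type} [CommRing A] {S : Scheme.{0}} (h : Spec (CommRingCat.of A) ⟶ S)
  [IsOpenImmersion h]

/-- `N(k)` restricts to `(N|)(k)` on charts, first step. -/
def r1 (N : (CohB1.ProjSpaceOver n S).Modules) (k : ℤ) :
    ((DCoh.tensorBi (X := CohB1.ProjSpace n A)).obj (N.restrict (chart n h))).obj
      ((Twist.twistOver n S k).restrict (chart n h)) ≅
    (((DCoh.tensorBi (X := CohB1.ProjSpaceOver n S)).obj N).obj
      (Twist.twistOver n S k)).restrict (chart n h) :=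
  PerfC.TensRestr.resIso (chart n h) N (Twist.twistOver n S k)

/-- `N(k)` restricts to `(N|)(k)` on charts, second step. -/
def r2 (N : (CohB1.ProjSpaceOver n S).Modules) (k : ℤ) :
    ((DCoh.tensorBi (X := CohB1.ProjSpace n A)).obj (N.restrict (chart n h))).obj
      ((Twist.twistOver n S k).restrict (chart n h)) ≅
    ((DCoh.tensorBi (X := CohB1.ProjSpace n A)).obj (N.restrict (chart n h))).obj
      (Twist.twistProjSpace n A k) :=
  ((DCoh.tensorBi (X := CohB1.ProjSpace n A)).obj (N.restrict (chart n h))).mapIso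
    (restrictTwistIso n h k)

/-- `N(k)` restricts to `(N|)(k)` on charts. -/
def r3 (N : (CohB1.ProjSpaceOver n S).Modules) (k : ℤ) :
    (((DCoh.tensorBi (X := CohB1.ProjSpaceOver n S)).obj N).obj
      (Twist.twistOver n S k)).restrict (chart n h) ≅
    ((DCoh.tensorBi (X := CohB1.ProjSpace n A)).obj (N.restrict (chart n h))).obj
      (Twist.twistProjSpace n A k) :=
  (r1 n h N k).symm ≪≫ r2 n h N k

end chart

section local_

variable (n : ℕ) {A R : Type} [CommRing A] [CommRing R] (φ : R →+* A) {X : Scheme.{0}}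
  (h : Spec (CommRingCat.of A) ⟶ X)

section over

variable [X.Over An.SC] [(CohB1.ProjSpaceOver n X).Over An.SC]
  [(CohB1.ProjSpaceOver.toBase n X).IsOver An.SC] [(Spec (CommRingCat.of A)).Over An.SC]
  [(CohB1.ProjSpace n A).Over An.SC] [(CohB1.ProjSpace.toSpec n A).IsOver An.SC]
  [h.IsOver An.SC]

theorem isOver_chart : (chart n h).IsOver An.SC := by
  constructor
  rw [← comp_over (CohB1.ProjSpaceOver.toBase n X) An.SC, chart_toBase_assoc, comp_over h An.SC,
    comp_over (CohB1.ProjSpace.toSpec n A) An.SC]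

variable [(Spec (CommRingCat.of R)).Over An.SC]
  [(CohB1.ProjSpace n R).Over An.SC] [(CohB1.ProjSpace.toSpec n R).IsOver An.SC]
  [(Spec.map (CommRingCat.ofHom φ)).IsOver An.SC]

omit [X.Over An.SC] [(CohB1.ProjSpaceOver n X).Over An.SC]
  [(CohB1.ProjSpaceOver.toBase n X).IsOver An.SC] [h.IsOver An.SC] in
theorem isOver_pmap : (pmap φ n).IsOver An.SC := by
  constructor
  rw [← comp_over (CohB1.ProjSpace.toSpec n R) An.SC, (isPullback_pmap φ n).w_assoc,
    comp_over (Spec.map (CommRingCat.ofHom φ)) An.SC,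
    comp_over (CohB1.ProjSpace.toSpec n A) An.SC]

end over

end local_

end transfer

end Groth.Agent.Gaga.H977.RelAcyc
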