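import Groth.Agent.Gaga.H977.RelAcyc
import Groth.Agent.CohqB.FinAmple
import Groth.Agent.CohqB.LocalQC

/-!
# Acyclicity of `N(k)^an` along the fibres of `P^n_X ⟶ X` over an affine chart of `X`
-/

set_option autoImplicit false

noncomputable section

open AlgebraicGeometry CategoryTheory CategoryTheory.Limits TopologicalSpace Opposite Topology

namespace Groth.Agent.Gaga.H977.RelAcyc

open Groth.Agent.Gaga.H41.Ind Groth.Agent.Gaga.H977.GagaNat Groth.Agent.Ega3A.PChart
  Groth.Agent.CohqB.ProjBC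

variable (n : ℕ) {A R : Type} [CommRing A] [CommRing R] (φ : R →+* A) {X : Scheme.{0}}
  (h : Spec (CommRingCat.of A) ⟶ X)
  [X.Over An.SC] [(CohB1.ProjSpaceOver n X).Over An.SC]
  [(CohB1.ProjSpaceOver.toBase n X).IsOver An.SC] [(Spec (CommRingCat.of A)).Over An.SC]
  [(CohB1.ProjSpace n A).Over An.SC] [(CohB1.ProjSpace.toSpec n A).IsOver An.SC]
  [h.IsOver An.SC] [(Spec (CommRingCat.of R)).Over An.SC]
  [(CohB1.ProjSpace n R).Over An.SC] [(CohB1.ProjSpace.toSpec n R).IsOver An.SC]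
  [(Spec.map (CommRingCat.ofHom φ)).IsOver An.SC]

omit [(CohB1.ProjSpace.toSpec n A).IsOver An.SC] [(CohB1.ProjSpace.toSpec n R).IsOver An.SC] in
/-- The fibres of the charts. -/
theorem fibre_eq [IsOpenImmersion h] (hφ : Function.Surjective φ) [(chart n h).IsOver An.SC]
    [(pmap φ n).IsOver An.SC] [(CohB1.ProjSpace.toSpec n A).IsOver An.SC]
    [(CohB1.ProjSpace.toSpec n R).IsOver An.SC] (y : An.Pts (Spec (CommRingCat.of A))) :
    (An.topMap (pmap φ n)) ⁻¹' {x : An.Pts (CohB1.ProjSpace n R) |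
        An.Pts.map (CohB1.ProjSpace.toSpec n R) x = An.Pts.map (Spec.map (CommRingCat.ofHom φ)) y} =
      (An.topMap (chart n h)) ⁻¹' {x : An.Pts (CohB1.ProjSpaceOver n X) |
        An.Pts.map (CohB1.ProjSpaceOver.toBase n X) x = An.Pts.map h y} := by
  have hc : IsClosedImmersion (Spec.map (CommRingCat.ofHom φ)) :=
    IsClosedImmersion.spec_of_surjective _ hφ
  ext x
  have h1 : An.Pts.map (CohB1.ProjSpace.toSpec n R) (An.Pts.map (pmap φ n) x) =
      An.Pts.map (Spec.map (CommRingCat.ofHom φ)) (An.Pts.map (CohB1.ProjSpace.toSpec n A) x) := by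
    apply Subtype.ext
    change (x.1 ≫ pmap φ n) ≫ CohB1.ProjSpace.toSpec n R =
      (x.1 ≫ CohB1.ProjSpace.toSpec n A) ≫ Spec.map (CommRingCat.ofHom φ)
    rw [Category.assoc, Category.assoc, (isPullback_pmap φ n).w]
  have h2 : An.Pts.map (CohB1.ProjSpaceOver.toBase n X) (An.Pts.map (chart n h) x) =
      An.Pts.map h (An.Pts.map (CohB1.ProjSpace.toSpec n A) x) := by
    apply Subtype.ext
    change (x.1 ≫ chart n h) ≫ CohB1.ProjSpaceOver.toBase n X =
      (x.1 ≫ CohB1.ProjSpace.toSpec n A) ≫ h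
    rw [Category.assoc, Category.assoc, chart_toBase]
  change An.Pts.map (CohB1.ProjSpace.toSpec n R) (An.Pts.map (pmap φ n) x) = _ ↔
    An.Pts.map (CohB1.ProjSpaceOver.toBase n X) (An.Pts.map (chart n h) x) = _
  rw [h1, h2]
  constructor
  · intro e
    have e1 := congrArg Subtype.val e
    change (An.Pts.map (CohB1.ProjSpace.toSpec n A) x).1 ≫ Spec.map (CommRingCat.ofHom φ) =
      y.1 ≫ Spec.map (CommRingCat.ofHom φ) at e1
    rw [cancel_mono] at e1
    rw [Subtype.ext e1]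
  · intro e
    have e1 := congrArg Subtype.val e
    change (An.Pts.map (CohB1.ProjSpace.toSpec n A) x).1 ≫ h = y.1 ≫ h at e1
    rw [cancel_mono] at e1
    rw [Subtype.ext e1]

/-- The fibre over a point of the chart lies in the chart. -/
theorem fibre_subset [IsOpenImmersion h] [(chart n h).IsOver An.SC]
    (y : An.Pts (Spec (CommRingCat.of A))) :
    {x : An.Pts (CohB1.ProjSpaceOver n X) |
        An.Pts.map (CohB1.ProjSpaceOver.toBase n X) x = An.Pts.map h y} ⊆
      Set.range (An.topMap (chart n h)) := by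
  intro x hx
  have e1 := congrArg Subtype.val (show An.Pts.map (CohB1.ProjSpaceOver.toBase n X) x =
    An.Pts.map h y from hx)
  change x.1 ≫ CohB1.ProjSpaceOver.toBase n X = y.1 ≫ h at e1
  let u : Spec (CommRingCat.of ℂ) ⟶ CohB1.ProjSpace n A := (isPullback_chart n h).lift x.1 y.1 e1
  have hu : u ≫ chart n h = x.1 := (isPullback_chart n h).lift_fst _ _ _
  refine ⟨⟨u, ?_⟩, Subtype.ext hu⟩
  rw [← comp_over (chart n h) An.SC, ← Category.assoc, hu]
  exact x.2

/-- The acyclicity statement along the fibres of `P^n_R ⟶ Spec R` for large twists. -/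
def HypD (n : ℕ) (R : Type) [CommRing R] [(Spec (CommRingCat.of R)).Over An.SC]
    [(CohB1.ProjSpace n R).Over An.SC] [(CohB1.ProjSpace.toSpec n R).IsOver An.SC] : Prop :=
  ∀ M : (CohB1.ProjSpace n R).Modules, Coh.IsCoh M → ∃ k₀ : ℕ, ∀ k : ℤ, (k₀ : ℤ) ≤ k →
    ∀ q : ℕ, 1 ≤ q → ∀ y : An.Pts (Spec (CommRingCat.of R)),
      IndZero (An.AnMod.toAb ((An.analytify (CohB1.ProjSpace n R)).obj
        (((DCoh.tensorBi (X := CohB1.ProjSpace n R)).obj M).obj (Twist.twistProjSpace n R k))))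
        {x : An.Pts (CohB1.ProjSpace n R) | An.Pts.map (CohB1.ProjSpace.toSpec n R) x = y} q

/-- Transport along isomorphisms of modules. -/
theorem indZero_iso {Y : Scheme.{0}} [Y.Over An.SC] {M M' : Y.Modules} (e : M ≅ M')
    {K : Set (An.top Y)} {q : ℕ} (hM : IndZero (An.AnMod.toAb ((An.analytify Y).obj M)) K q) :
    IndZero (An.AnMod.toAb ((An.analytify Y).obj M')) K q :=
  hM.congr ((toAbA Y).mapIso ((An.analytify Y).mapIso e))

/-- **Acyclicity of large twists along the fibres over an affine chart.** -/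
theorem local_acyc [IsOpenImmersion h] (hφ : Function.Surjective φ)
    [LocallyOfFiniteType (CohB1.ProjSpace n A ↘ An.SC)]
    [LocallyOfFiniteType (CohB1.ProjSpace n R ↘ An.SC)] [IsReduced (CohB1.ProjSpace n A)]
    [IsReduced (CohB1.ProjSpace n R)] [IsLocallyNoetherian (CohB1.ProjSpace n R)]
    (hD : HypD n R) (N : (CohB1.ProjSpaceOver n X).Modules) (hN : Coh.IsCoh N) :
    ∃ k₀ : ℕ, ∀ k : ℤ, (k₀ : ℤ) ≤ k → ∀ q : ℕ, 1 ≤ q → ∀ y : An.Pts (Spec (CommRingCat.of A)),
      IndZero (An.AnMod.toAb ((An.analytify (CohB1.ProjSpaceOver n X)).obj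
        (((DCoh.tensorBi (X := CohB1.ProjSpaceOver n X)).obj N).obj (Twist.twistOver n X k))))
        {x : An.Pts (CohB1.ProjSpaceOver n X) |
          An.Pts.map (CohB1.ProjSpaceOver.toBase n X) x = An.Pts.map h y} q := by
  have hc : IsClosedImmersion (pmap φ n) := isClosedImmersion_pmap n φ hφ
  have i1 : (chart n h).IsOver An.SC := isOver_chart n h
  have i2 : (pmap φ n).IsOver An.SC := isOver_pmap n φ
  have hNA : Coh.IsCoh (N.restrict (chart n h)) := Groth.Agent.CohqB.LocalQC.isCoh_restrict _ hN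
  obtain ⟨k₀, hk₀⟩ := hD ((Scheme.Modules.pushforward (pmap φ n)).obj (N.restrict (chart n h)))
    (Groth.Agent.CohqB.FinAmple.isCoh_push (pmap φ n) hNA)
  refine ⟨k₀, fun k hk q hq y => ?_⟩
  have h1 := hk₀ k hk q hq (An.Pts.map (Spec.map (CommRingCat.ofHom φ)) y)
  have h2 := indZero_iso (e3 n φ (N.restrict (chart n h)) k) h1
  have h3 := indZero_of_pushMod (pmap φ n) _ h2
  rw [fibre_eq n φ h hφ y] at h3
  have h4 := indZero_iso (r3 n h N k).symm h3
  exact indZero_of_restrict (chart n h) _ (fibre_subset n h y) h4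

end Groth.Agent.Gaga.H977.RelAcyc
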