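import Groth.Agent.Gaga.H977.RelAcyc2
import Groth.Agent.Gaga.H991.AffEmb
import Groth.Agent.An.H875.ProperMap
import Groth.Agent.Gaga.H988.Base
import Groth.Agent.Gaga.H988.PnInst
import Groth.Agent.Ega3B.ProjProper

/-!
# Local acyclicity of `N(k)^an` for `P^n_X ⟶ X` and `k` large
-/

set_option autoImplicit false
set_option linter.style.haveILetI false

noncomputable section

open AlgebraicGeometry CategoryTheory CategoryTheory.Limits TopologicalSpace Opposite Topology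

namespace Groth.Agent.Gaga.H977.RelAcyc

open Groth.Agent.Gaga.H41.Ind Groth.Agent.Gaga.H977.GagaNat Groth.Agent.Ega3A.PChart
  Groth.Agent.CohqB.ProjBC Groth.Agent.Gaga.H977.CanAcyc Groth.Agent.Gaga.H977.TopLoc

theorem surjective_of_isClosedImmersion {R A : CommRingCat.{0}} (f : R ⟶ A)
    [IsClosedImmersion (Spec.map f)] : Function.Surjective f.hom := by
  have h1 : Function.Surjective (Spec.map f).appTop :=
    (IsClosedImmersion.isAffine_surjective_of_isAffine (Spec.map f)).2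
  intro a
  obtain ⟨b, hb⟩ := h1 ((Scheme.ΓSpecIso A).inv a)
  refine ⟨(Scheme.ΓSpecIso R).hom b, ?_⟩
  have h2 := Scheme.ΓSpecIso_naturality f
  have h3 := ConcreteCategory.congr_hom h2 b
  refine h3.symm.trans ?_
  change (Scheme.ΓSpecIso A).hom ((Spec.map f).appTop b) = a
  rw [hb]
  exact ConcreteCategory.congr_hom (Scheme.ΓSpecIso A).inv_hom_id a

/-- `HypD` for polynomial rings with their standard structures. -/
def HypPoly (n : ℕ) : Prop := ∀ m : ℕ,
  letI := Groth.Agent.Gaga.H988.Base.overB (MvPolynomial (Fin m) ℂ)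
  letI := Groth.Agent.Gaga.H988.PnInst.overStd n (MvPolynomial (Fin m) ℂ)
  letI : (CohB1.ProjSpace.toSpec n (MvPolynomial (Fin m) ℂ)).IsOver An.SC := ⟨rfl⟩
  HypD n (MvPolynomial (Fin m) ℂ)

/-- Acyclicity over an affine chart. -/
theorem chart_acyc (n : ℕ) (hD : HypPoly n) {X : Scheme.{0}} [X.Over An.SC]
    [LocallyOfFiniteType (X ↘ An.SC)] [IsReduced X]
    [(CohB1.ProjSpaceOver n X).Over An.SC] [(CohB1.ProjSpaceOver.toBase n X).IsOver An.SC]
    {A : Type} [CommRing A] (h : Spec (CommRingCat.of A) ⟶ X) [IsOpenImmersion h]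
    (N : (CohB1.ProjSpaceOver n X).Modules) (hN : Coh.IsCoh N) :
    ∃ k₀ : ℕ, ∀ k : ℤ, (k₀ : ℤ) ≤ k → ∀ q : ℕ, 1 ≤ q → ∀ y : An.Pts X,
      y.pt ∈ h.opensRange →
      IndZero (An.AnMod.toAb ((An.analytify (CohB1.ProjSpaceOver n X)).obj
        (((DCoh.tensorBi (X := CohB1.ProjSpaceOver n X)).obj N).obj (Twist.twistOver n X k))))
        {x : An.Pts (CohB1.ProjSpaceOver n X) |
          An.Pts.map (CohB1.ProjSpaceOver.toBase n X) x = y} q := by
  letI : (Spec (CommRingCat.of A)).Over An.SC := ⟨h ≫ (X ↘ An.SC)⟩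
  haveI : h.IsOver An.SC := ⟨rfl⟩
  letI : (CohB1.ProjSpace n A).Over An.SC := ⟨CohB1.ProjSpace.toSpec n A ≫ h ≫ (X ↘ An.SC)⟩
  haveI : (CohB1.ProjSpace.toSpec n A).IsOver An.SC := ⟨rfl⟩
  haveI hft : LocallyOfFiniteType (Spec (CommRingCat.of A) ↘ An.SC) :=
    inferInstanceAs (LocallyOfFiniteType (h ≫ (X ↘ An.SC)))
  obtain ⟨m, i, hi, hi2⟩ := Groth.Agent.Gaga.H991.AffEmb.exists_closedImmersion (Spec (CommRingCat.of A))
  let φ : MvPolynomial (Fin m) ℂ →+* A := (Spec.preimage i).hom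
  have hφi : Spec.map (CommRingCat.ofHom φ) = i := Spec.map_preimage i
  letI := Groth.Agent.Gaga.H988.Base.overB (MvPolynomial (Fin m) ℂ)
  letI := Groth.Agent.Gaga.H988.PnInst.overStd n (MvPolynomial (Fin m) ℂ)
  haveI : (CohB1.ProjSpace.toSpec n (MvPolynomial (Fin m) ℂ)).IsOver An.SC := ⟨rfl⟩
  haveI hci : IsClosedImmersion (Spec.map (CommRingCat.ofHom φ)) := by rw [hφi]; exact hi
  have hs : Function.Surjective φ := surjective_of_isClosedImmersion (CommRingCat.ofHom φ)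
  haveI : (Spec.map (CommRingCat.ofHom φ)).IsOver An.SC := ⟨by rw [hφi]; exact hi2⟩
  haveI : IsProper (CohB1.ProjSpace.toSpec n A) := Groth.Agent.Ega3B.ProjProper.isProper_toSpec n A
  haveI : IsProper (CohB1.ProjSpace.toSpec n (MvPolynomial (Fin m) ℂ)) :=
    Groth.Agent.Ega3B.ProjProper.isProper_toSpec n _
  haveI : LocallyOfFiniteType (CohB1.ProjSpace n A ↘ An.SC) :=
    inferInstanceAs (LocallyOfFiniteType (CohB1.ProjSpace.toSpec n A ≫ h ≫ (X ↘ An.SC)))
  haveI : LocallyOfFiniteType (Spec.map (CommRingCat.ofHom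
      (algebraMap ℂ (MvPolynomial (Fin m) ℂ)))) := by
    rw [HasRingHomProperty.Spec_iff (P := @LocallyOfFiniteType)]
    have : Algebra.FiniteType ℂ (MvPolynomial (Fin m) ℂ) := inferInstance
    exact (RingHom.finiteType_algebraMap).2 this
  haveI : LocallyOfFiniteType (CohB1.ProjSpace n (MvPolynomial (Fin m) ℂ) ↘ An.SC) :=
    inferInstanceAs (LocallyOfFiniteType (CohB1.ProjSpace.toSpec n (MvPolynomial (Fin m) ℂ) ≫
      Spec.map (CommRingCat.ofHom (algebraMap ℂ (MvPolynomial (Fin m) ℂ)))))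
  haveI : IsReduced (CohB1.ProjSpace n (MvPolynomial (Fin m) ℂ)) :=
    Groth.Agent.Gaga.H364.ProjRed.isReduced_projSpace n _
  haveI : IsReduced (CohB1.ProjSpaceOver n X) :=
    Groth.Agent.Gaga.H364.ProjRed.isReduced_projSpaceOver n X
  haveI : IsReduced (CohB1.ProjSpace n A) := isReduced_of_isOpenImmersion (chart n h)
  haveI : IsLocallyNoetherian (CohB1.ProjSpace n (MvPolynomial (Fin m) ℂ)) :=
    LocallyOfFiniteType.isLocallyNoetherian
      (CohB1.ProjSpace n (MvPolynomial (Fin m) ℂ) ↘ An.SC)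
  obtain ⟨k₀, hk₀⟩ := local_acyc n φ h hs (hD m) N hN
  refine ⟨k₀, fun k hk q hq y hy => ?_⟩
  obtain ⟨u, hu⟩ : ∃ u : An.Pts (Spec (CommRingCat.of A)), An.Pts.map h u = y := by
    have h1 : Set.range y.1 ⊆ Set.range h := by
      rintro _ ⟨x, rfl⟩
      have : y.1 x = y.pt := congrArg _ (Subsingleton.elim _ _)
      rw [this]
      exact hy
    refine ⟨⟨IsOpenImmersion.lift h y.1 h1, ?_⟩, Subtype.ext (IsOpenImmersion.lift_fac h y.1 h1)⟩
    change IsOpenImmersion.lift h y.1 h1 ≫ h ≫ (X ↘ An.SC) = 𝟙 _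
    rw [← Category.assoc, IsOpenImmersion.lift_fac]
    exact y.2
  rw [← hu]
  exact hk₀ k hk q hq u

/-- **Local acyclicity of large twists** for `P^n_X ⟶ X`. -/
theorem exists_locAcyc (n : ℕ) (hD : HypPoly n) {X : Scheme.{0}} [X.Over An.SC]
    [LocallyOfFiniteType (X ↘ An.SC)] [IsReduced X] [CompactSpace X]
    [(CohB1.ProjSpaceOver n X).Over An.SC] [(CohB1.ProjSpaceOver.toBase n X).IsOver An.SC]
    (N : (CohB1.ProjSpaceOver n X).Modules) (hN : Coh.IsCoh N) :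
    ∃ k₀ : ℕ, ∀ k : ℤ, (k₀ : ℤ) ≤ k →
      LocAcyc (An.topMap (CohB1.ProjSpaceOver.toBase n X))
        (An.AnMod.toAb ((An.analytify (CohB1.ProjSpaceOver n X)).obj
          (((DCoh.tensorBi (X := CohB1.ProjSpaceOver n X)).obj N).obj
            (Twist.twistOver n X k)))) := by
  let 𝒰 := X.affineCover.finiteSubcover
  haveI : Finite 𝒰.I₀ := inferInstance
  have h1 : ∀ i : 𝒰.I₀, ∃ k₀ : ℕ, ∀ k : ℤ, (k₀ : ℤ) ≤ k → ∀ q : ℕ, 1 ≤ q → ∀ y : An.Pts X,
      y.pt ∈ (𝒰.f i).opensRange →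
      IndZero (An.AnMod.toAb ((An.analytify (CohB1.ProjSpaceOver n X)).obj
        (((DCoh.tensorBi (X := CohB1.ProjSpaceOver n X)).obj N).obj (Twist.twistOver n X k))))
        {x : An.Pts (CohB1.ProjSpaceOver n X) |
          An.Pts.map (CohB1.ProjSpaceOver.toBase n X) x = y} q := by
    intro i
    obtain ⟨k₀, hk₀⟩ := chart_acyc n hD ((𝒰.X i).isoSpec.inv ≫ 𝒰.f i) N hN
    refine ⟨k₀, fun k hk q hq y hy => hk₀ k hk q hq y ?_⟩
    rw [Scheme.Hom.opensRange_comp_of_isIso]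
    exact hy
  choose k₀ hk₀ using h1
  have hbdd : ∃ K : ℕ, ∀ i, k₀ i ≤ K := by
    obtain ⟨K, hK⟩ := (Set.finite_range k₀).bddAbove
    exact ⟨K, fun i => hK ⟨i, rfl⟩⟩
  obtain ⟨K, hK⟩ := hbdd
  refine ⟨K, fun k hk => ?_⟩
  haveI : IsProper (CohB1.ProjSpaceOver.toBase n X) := Groth.Agent.Ega3B.ProjProper.isProper_toBase n X
  refine locAcyc_of_indZero _
    (Groth.Agent.An.H875.ProperMap.isProperMap_map (CohB1.ProjSpaceOver.toBase n X)).isClosedMap
    (fun q y => ?_)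
  have hy := 𝒰.covers (An.Pts.pt y)
  exact hk₀ (𝒰.idx (An.Pts.pt y)) k (le_trans (by exact_mod_cast hK _) hk) (q + 1) (by omega) y hy

end Groth.Agent.Gaga.H977.RelAcyc
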