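import Groth.Agent.Gaga.H977.OpenRes
import Groth.Agent.Gaga.H977.CanAcyc
import Groth.Agent.CohtopA.PushCanTop

/-!
# Local acyclicity of direct images: topological criteria

* `locAcyc_of_indZero`: `f` closed, germs of classes along all fibres vanish.
* `indZero_push`, `indZero_of_push`: germs of classes and direct images along closed embeddings.
* `indZero_of_support`, `locAcyc_of_support`: sheaves supported on a closed set on which `f` is injective.
-/

set_option autoImplicit false
universe u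

open CategoryTheory Limits Opposite Abelian TopologicalSpace Topology

noncomputable section

namespace Groth.Agent.Gaga.H977.TopLoc

open Groth.Agent.Gaga.H41.Ind Groth.Agent.Gaga.H977.CanAcyc Groth.Agent.Gaga.H977.OpenRes
  Groth.Agent.CohtopA.PushCanTop Groth.Agent.CohtopA.MVElem

variable {T S : TopCat.{u}}

/-- A neighbourhood of a fibre of a closed map contains the preimage of a neighbourhood. -/
theorem exists_tube (f : T ⟶ S) (hf : IsClosedMap f) (y : S) (U : Opens T)
    (hU : f ⁻¹' {y} ⊆ U) (V : Opens S) (hV : y ∈ V) :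
    ∃ W : Opens S, W ≤ V ∧ y ∈ W ∧ (Opens.map f).obj W ≤ U := by
  have hc : IsClosed (f '' (U : Set T)ᶜ) := hf _ U.isOpen.isClosed_compl
  refine ⟨⟨(f '' (U : Set T)ᶜ)ᶜ, hc.isOpen_compl⟩ ⊓ V, inf_le_right, ⟨?_, hV⟩, ?_⟩
  · rintro ⟨x, hx, hxy⟩
    exact hx (hU hxy)
  · intro x hx
    by_contra h
    exact hx.1 ⟨x, h, rfl⟩

/-- A sheaf is locally acyclic for a closed map if the germs of classes along the fibres vanish. -/
theorem locAcyc_of_indZero (f : T ⟶ S) (hf : IsClosedMap f) {F : CohTop.Ab T}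
    (h : ∀ (q : ℕ) (y : S), IndZero F (f ⁻¹' {y}) (q + 1)) : LocAcyc f F := by
  intro q V a y hy
  obtain ⟨U, hU, hyU, hU0⟩ := h q y ((Opens.map f).obj V) (by
    intro x hx
    have : f x = y := hx
    change f x ∈ V
    rwa [this]) a
  obtain ⟨W, hWV, hyW, hWU⟩ := exists_tube f hf y U hyU V hy
  refine ⟨W, hWV, hyW, ?_⟩
  rw [← res_res F (q + 1) hU hWU, hU0, map_zero]

/-- Germs of classes along the fibres of a closed map vanish for a locally acyclic sheaf. -/
theorem indZero_of_locAcyc (f : T ⟶ S) (hf : IsClosedMap f) {F : CohTop.Ab T}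
    (h : LocAcyc f F) (q : ℕ) (y : S) : IndZero F (f ⁻¹' {y}) (q + 1) := by
  intro U hU a
  obtain ⟨W, -, hyW, hWU⟩ := exists_tube f hf y U hU ⊤ trivial
  obtain ⟨W', hW', hyW', h0⟩ := h q W (CohTop.res F (q + 1) hWU a) y hyW
  refine ⟨(Opens.map f).obj W', (fun _ hx => hWU (hW' hx)), ?_, ?_⟩
  · intro x hx
    have : f x = y := hx
    change f x ∈ W'
    rwa [this]
  · rw [← res_res F (q + 1) hWU (fun _ hx => hW' hx), h0]

/-- A sheaf is locally acyclic for a closed injective map. -/
theorem locAcyc_of_injective (f : T ⟶ S) (hf : IsClosedMap f) (hi : Function.Injective f)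
    (F : CohTop.Ab T) : LocAcyc f F := by
  refine locAcyc_of_indZero f hf (fun q y => ?_)
  by_cases hy : ∃ x, f x = y
  · obtain ⟨x, rfl⟩ := hy
    have : f ⁻¹' {f x} = {x} := by
      ext z
      exact ⟨fun h => hi h, fun h => congrArg f h⟩
    rw [this]
    exact indZero_singleton x q
  · have : f ⁻¹' {y} = ∅ := by
      ext z
      exact ⟨fun h => hy ⟨z, h⟩, fun h => h.elim⟩
    rw [this]
    exact indZero_empty (q + 1)

section push

variable (c : T ⟶ S) (hc : IsClosedEmbedding c) (F : CohTop.Ab T)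

include hc

theorem isZero_Rpush_of_isClosedEmbedding (q : ℕ) : IsZero ((CohTop.Rpush c (q + 1)).obj F) :=
  isZero_Rpush c F (locAcyc_of_injective c hc.isClosedMap hc.injective F) q

/-- Germs of classes of a direct image along a closed embedding. -/
theorem indZero_of_push {K : Set S} {q : ℕ} (h : IndZero ((CohTop.push c).obj F) K q) :
    IndZero F (c ⁻¹' K) q := by
  intro U hU a
  obtain ⟨U', hU'⟩ : ∃ U' : Opens S, (Opens.map c).obj U' = U := by
    obtain ⟨V, hV, hVU⟩ := hc.isInducing.isOpen_iff.1 U.isOpen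
    exact ⟨⟨V, hV⟩, Opens.ext hVU⟩
  let U'' : Opens S := U' ⊔ ⟨(Set.range c)ᶜ, hc.isClosed_range.isOpen_compl⟩
  have hUU : (Opens.map c).obj U'' = U := by
    rw [← hU']
    ext x
    constructor
    · rintro (hx | hx)
      · exact hx
      · exact absurd ⟨x, rfl⟩ hx
    · intro hx
      exact Or.inl hx
  have hK : K ⊆ U'' := by
    intro y hy
    by_cases hy' : y ∈ Set.range c
    · obtain ⟨x, rfl⟩ := hy'
      have hx : x ∈ U := hU hy
      rw [← hU'] at hx
      exact Or.inl hx
    · exact Or.inr hy'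
  clear_value U''
  subst hUU
  obtain ⟨b, rfl⟩ := (pushCanU_bijective c U'' F
    (isZero_Rpush_of_isClosedEmbedding c hc F) q).surjective a
  obtain ⟨V, hV, hKV, h0⟩ := h U'' hK b
  refine ⟨(Opens.map c).obj V, (fun _ hx => hV hx), (fun x hx => hKV hx), ?_⟩
  have h1 := pushCanU_res c hV b
  rw [h0, map_zero] at h1
  exact h1.symm

/-- Germs of classes of a direct image along a closed embedding. -/
theorem indZero_push {K : Set S} {q : ℕ} (h : IndZero F (c ⁻¹' K) q) :
    IndZero ((CohTop.push c).obj F) K q := by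
  intro U hU a
  obtain ⟨W, hWU, hKW, h0⟩ := h ((Opens.map c).obj U) (fun x hx => hU hx) (pushCanU c U F q a)
  let V : Opens S := U ⊓ ⟨(c '' (W : Set T)ᶜ)ᶜ, (hc.isClosedMap _ W.isOpen.isClosed_compl).isOpen_compl⟩
  have hVW : (Opens.map c).obj V ≤ W := by
    intro x hx
    by_contra h
    exact hx.2 ⟨x, h, rfl⟩
  refine ⟨V, inf_le_left, ?_, ?_⟩
  · intro y hy
    refine ⟨hU hy, ?_⟩
    rintro ⟨x, hx, rfl⟩
    exact hx (hKW hy)
  · apply (pushCanU_bijective c V F (isZero_Rpush_of_isClosedEmbedding c hc F) q).injective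
    rw [map_zero, pushCanU_res c inf_le_left a, ← res_res F q hWU hVW, h0, map_zero]

end push

section support

/-- Cohomology vanishes over opens over which the sheaf is zero. -/
theorem subsingleton_HU_of_sections (F : CohTop.Ab T) (W : Opens T)
    (hF : ∀ V : Opens T, V ≤ W → Subsingleton (F.obj.obj (op V))) (q : ℕ) :
    Subsingleton (CohTop.HU F q W) := by
  let g : TopCat.of W ⟶ T := TopCat.ofHom ⟨_, continuous_subtype_val⟩
  have : Fact (IsOpenEmbedding g) := ⟨W.isOpenEmbedding⟩
  have hW : (imO g).obj ⊤ = W := Opens.isOpenEmbedding_obj_top W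
  have hle : ∀ V : Opens (TopCat.of W), (imO g).obj V ≤ W := by
    rintro V _ ⟨x, -, rfl⟩
    exact x.2
  have hz : IsZero ((opnRes g).obj F) := by
    rw [IsZero.iff_id_eq_zero]
    apply Sheaf.hom_ext
    ext V x
    have : Subsingleton (((opnRes g).obj F).obj.obj V) := hF _ (hle V.unop)
    exact Subsingleton.elim _ _
  have h1 : Subsingleton (CohTop.HU ((opnRes g).obj F) q ⊤) := by
    refine subsingleton_of_forall_eq 0 (fun x => ?_)
    have h0 := Ext.comp_mk₀_id x
    rw [hz.eq_of_src (𝟙 _) 0, Ext.mk₀_zero, Ext.comp_zero] at h0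
    exact h0.symm
  have h2 := (hmap_bijective g ⊤ F q).injective
  have h3 : Subsingleton (CohTop.HU F q ((imO g).obj ⊤)) := h2.subsingleton
  rw [hW] at h3
  exact h3

/-- Germs of classes of a sheaf supported on `Z` along `K`, if `K` meets `Z` in at most one point. -/
theorem indZero_of_support {F : CohTop.Ab T} {Z : Set T} (hZ : IsClosed Z)
    (hF : ∀ V : Opens T, (V : Set T) ⊆ Zᶜ → Subsingleton (F.obj.obj (op V)))
    {K : Set T} (hK : (K ∩ Z).Subsingleton) (q : ℕ) : IndZero F K (q + 1) := by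
  intro U hU a
  let B : Opens T := U ⊓ ⟨Zᶜ, hZ.isOpen_compl⟩
  have hB : ∀ (W : Opens T) (_ : W ≤ B) (n : ℕ), Subsingleton (CohTop.HU F n W) := by
    intro W hW n
    exact subsingleton_HU_of_sections F W (fun V hV => hF V (fun x hx => (hW (hV hx)).2)) n
  obtain ⟨A, hAU, hKA, hA0⟩ : ∃ (A : Opens T) (hAU : A ≤ U), K ∩ Z ⊆ A ∧
      CohTop.res F (q + 1) hAU a = 0 := by
    rcases hK.eq_empty_or_singleton with h | ⟨x, hx⟩
    · refine ⟨⊥, bot_le, by rw [h]; exact Set.empty_subset _, ?_⟩
      have := hB ⊥ bot_le (q + 1)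
      exact Subsingleton.elim _ _
    · obtain ⟨A, hAU, hxA, hA0⟩ := indZero_singleton (F := F) x q U (by
        rw [← hx]
        exact Set.inter_subset_left.trans hU) a
      exact ⟨A, hAU, by rw [hx]; exact hxA, hA0⟩
  refine ⟨A ⊔ B, sup_le hAU inf_le_left, ?_, ?_⟩
  · intro y hy
    by_cases hyZ : y ∈ Z
    · exact Or.inl (hKA ⟨hy, hyZ⟩)
    · exact Or.inr ⟨hU hy, hyZ⟩
  · obtain ⟨η, hη⟩ := exists_δ F (A := A) (B := B) q
      (CohTop.res F (q + 1) (sup_le hAU inf_le_left) a)
      (by rw [res_res]; exact hA0)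
      (by
        have := hB B le_rfl (q + 1)
        exact Subsingleton.elim _ _)
    have := hB (A ⊓ B) inf_le_right q
    rw [← hη, Subsingleton.elim η 0, map_zero]

/-- A sheaf supported on a closed subset on which the closed map `f` is injective is locally
acyclic for `f`. -/
theorem locAcyc_of_support (f : T ⟶ S) (hf : IsClosedMap f) {F : CohTop.Ab T} {Z : Set T}
    (hZ : IsClosed Z) (hF : ∀ V : Opens T, (V : Set T) ⊆ Zᶜ → Subsingleton (F.obj.obj (op V)))
    (hi : Set.InjOn f Z) : LocAcyc f F :=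
  locAcyc_of_indZero f hf fun q y => indZero_of_support hZ hF (by
    rintro a ⟨ha, haZ⟩ b ⟨hb, hbZ⟩
    exact hi haZ hbZ (ha.trans (Eq.symm hb))) q

end support

/-- On a space with one point all of whose non-empty opens are everything, locally acyclic means
acyclic. -/
theorem subsingleton_H_of_locAcyc (f : T ⟶ S) {F : CohTop.Ab T} (h : LocAcyc f F) (y : S)
    (hy : ∀ W : Opens S, y ∈ W → W = ⊤) (q : ℕ) : Subsingleton (CohTop.H F (q + 1)) := by
  have h1 : Subsingleton (CohTop.HU F (q + 1) ((Opens.map f).obj ⊤)) := by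
    refine subsingleton_of_forall_eq 0 (fun a => ?_)
    obtain ⟨W, hW, hyW, h0⟩ := h q ⊤ a y trivial
    obtain rfl := hy W hyW
    have h2 := res_self F (q + 1) (U := (Opens.map f).obj ⊤) le_rfl a
    exact h2.symm.trans h0
  have h3 : Subsingleton (CohTop.HU F (q + 1) ⊤) := h1
  exact (Groth.Agent.CohtopA.Flasque.HTopEquiv F (q + 1)).toEquiv.subsingleton

end Groth.Agent.Gaga.H977.TopLoc
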