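import Groth.Agent.Gaga.H977.GagaPush
import Groth.Agent.Gaga.H977.TopLoc
import Groth.Agent.Gaga.H975.BridgeH0
import Groth.Agent.Gaga.H975.BridgePt

/-!
# Modules without higher cohomology, algebraically and analytically
-/

set_option autoImplicit false

noncomputable section

open AlgebraicGeometry CategoryTheory CategoryTheory.Limits TopologicalSpace Opposite Topology

namespace Groth.Agent.Gaga.H977.Van

open Groth.Agent.Gaga.H977.GagaNat Groth.Agent.Gaga.H977.CanAcyc Groth.Agent.Gaga.H977.CanTop
  Groth.Agent.Gaga.H977.GagaPush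

/-- `H^q(X, M) = 0` for `q ≥ 1`. -/
def VanAlg {X : Scheme.{0}} (M : X.Modules) : Prop :=
  ∀ q : ℕ, Subsingleton (CohTop.H ((toAbX X).obj M) (q + 1))

/-- `H^q(X(ℂ), M^an) = 0` for `q ≥ 1`. -/
def VanAn {X : Scheme.{0}} [X.Over An.SC] (M : X.Modules) : Prop :=
  ∀ q : ℕ, Subsingleton (CohTop.H (An.AnMod.toAb ((An.analytify X).obj M)) (q + 1))

theorem VanAlg.of_iso {X : Scheme.{0}} {M N : X.Modules} (e : M ≅ N) (h : VanAlg M) :
    VanAlg N := fun q => by
  have := h q
  exact (postcomp_bijective ((toAbX X).map e.hom) (q + 1)).surjective.subsingleton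

theorem VanAn.of_iso {X : Scheme.{0}} [X.Over An.SC] {M N : X.Modules} (e : M ≅ N)
    (h : VanAn M) : VanAn N := fun q => by
  have := h q
  exact (postcomp_bijective ((toAbA X).map ((An.analytify X).map e.hom))
    (q + 1)).surjective.subsingleton

lemma subsingleton_iff_of_bijective {A B : Type*} (g : A → B) (hg : Function.Bijective g) :
    Subsingleton A ↔ Subsingleton B :=
  ⟨fun _ => hg.surjective.subsingleton, fun _ => hg.injective.subsingleton⟩

section push

variable {X Y : Scheme.{0}} [X.Over An.SC] [Y.Over An.SC] (f : X ⟶ Y)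

set_option backward.isDefEq.respectTransparency.types false in
theorem vanAlg_push_iff (M : X.Modules)
    (h1 : LocAcyc (X := (X : TopCat.{0})) (Y := (Y : TopCat.{0})) f.base ((toAbX X).obj M)) :
    VanAlg ((An.pushMod f).obj M) ↔ VanAlg M := by
  refine forall_congr' fun q => ?_
  have hB : Function.Bijective (canT (X := (X : TopCat.{0})) (Y := (Y : TopCat.{0})) f.base
      (idPush f M) (q + 1)) :=
    canT_bijective (X := (X : TopCat.{0})) (Y := (Y : TopCat.{0})) f.base ((toAbX X).obj M) h1 (q + 1)
  exact subsingleton_iff_of_bijective _ hB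

variable [f.IsOver An.SC]

set_option backward.isDefEq.respectTransparency.types false in
theorem vanAn_push_iff (M : X.Modules)
    (h2 : LocAcyc (An.topMap f) (An.AnMod.toAb ((An.analytify X).obj M)))
    (h3 : IsIso (An.anBaseChange f M)) :
    VanAn ((An.pushMod f).obj M) ↔ VanAn M := by
  refine forall_congr' fun q => ?_
  have hA : Function.Bijective (canT (An.topMap f) (bcAb f M) (q + 1)) := by
    have : IsIso (bcAb f M) := inferInstanceAs (IsIso ((toAbA Y).map (An.anBaseChange f M)))
    exact canT_bijective_of_isIso (An.topMap f) (bcAb f M) h2 (q + 1)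
  exact subsingleton_iff_of_bijective _ hA

end push

/-- Modules without higher cohomology on either side are good if the global sections agree. -/
theorem good_of_van {X : Scheme.{0}} [X.Over An.SC] {M : X.Modules} (h1 : VanAlg M)
    (h2 : VanAn M) (h0 : Function.Bijective (An.gagaH X M 0)) : Good M := by
  intro n
  cases n with
  | zero => exact h0
  | succ q =>
    have i1 := h1 q
    have i2 := h2 q
    have : Subsingleton (CohTop.H ((toAbX X).obj M) (q + 1)) := i1
    exact ⟨fun a b _ => Subsingleton.elim (α := CohTop.H ((toAbX X).obj M) (q + 1)) a b,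
      fun b => ⟨0, Subsingleton.elim (α := CohTop.H (An.AnMod.toAb ((An.analytify X).obj M))
        (q + 1)) _ b⟩⟩

end Groth.Agent.Gaga.H977.Van
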