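import Groth.Agent.Gaga.H977.RelAcyc
import Groth.Agent.Gaga.H977.Van
import Groth.Agent.An.H875.ProperMap

/-!
# Local acyclicity for modules supported on a closed subset on which the morphism is injective
-/

set_option autoImplicit false
set_option linter.style.haveILetI false

noncomputable section

open AlgebraicGeometry CategoryTheory CategoryTheory.Limits TopologicalSpace Opposite Topology

namespace Groth.Agent.Gaga.H977.Supp

open Groth.Agent.Gaga.H977.GagaNat Groth.Agent.Gaga.H977.CanAcyc Groth.Agent.Gaga.H977.TopLoc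
  Groth.Agent.Gaga.H277.OpenHol Groth.Agent.Gaga.H277.AnRestr Groth.Agent.Gaga.H977.RelAcyc

/-- A module whose sections over the members of a basis of opens vanish is zero. -/
theorem isZero_of_sections {X : Scheme.{0}} (M : X.Modules)
    (h : ∀ V : X.Opens, Subsingleton Γ(M, V)) : IsZero M := by
  rw [IsZero.iff_id_eq_zero]
  ext V t
  have := h V
  exact Subsingleton.elim _ _

theorem subsingleton_of_isZero {T : TopCat.{0}} {F : CohTop.Ab T} (h : IsZero F) (V : Opens T) :
    Subsingleton (F.obj.obj (op V)) := by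
  have h1 : 𝟙 F = 0 := h.eq_of_src _ _
  refine subsingleton_of_forall_eq 0 fun x => ?_
  have h2 := congrArg (fun t : F ⟶ F => (t.hom.app (op V)) x) h1
  exact h2

/-- Sections of `M^an` over an open of `Y(ℂ)` contained in `U(ℂ)` vanish if `M|_U = 0`. -/
theorem subsingleton_an {Y : Scheme.{0}} [Y.Over An.SC] (M : Y.Modules) (U : Y.Opens)
    (hM : ∀ V : Y.Opens, V ≤ U → Subsingleton Γ(M, V)) (W : Opens (An.top Y))
    (hW : ∀ x : An.Pts Y, x ∈ W → x.pt ∈ U) :
    Subsingleton ((An.AnMod.toAb ((An.analytify Y).obj M)).obj.obj (op W)) := by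
  letI : (U : Scheme.{0}).Over An.SC := ⟨U.ι ≫ (Y ↘ An.SC)⟩
  have : U.ι.IsOver An.SC := ⟨rfl⟩
  have h1 : IsZero (M.restrict U.ι) := isZero_of_sections _ fun V => by
    refine hM (U.ι ''ᵁ V) ?_
    rintro _ ⟨x, -, rfl⟩
    exact x.2
  have h2 : IsZero ((anRestrict U.ι).obj ((An.analytify Y).obj M)) :=
    IsZero.of_iso ((An.analytify U).map_isZero h1) ((restrIso U.ι).app M)
  have h3 : IsZero (An.AnMod.toAb ((anRestrict U.ι).obj ((An.analytify Y).obj M))) :=
    (toAbA (U : Scheme.{0})).map_isZero h2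
  have h4 := subsingleton_of_isZero h3 ((Opens.map (An.topMap U.ι)).obj W)
  have h5 : (imF U.ι).obj ((Opens.map (An.topMap U.ι)).obj W) = W := by
    ext x
    constructor
    · rintro ⟨y, hy, rfl⟩
      exact hy
    · intro hx
      have hx' := hW x hx
      have h6 : x ∈ Set.range (An.Pts.map U.ι) := by
        rw [Groth.Agent.An.H871.Imm.range_map_of_isOpenImmersion U.ι]
        change x.pt ∈ U.ι.opensRange
        rw [Scheme.Opens.opensRange_ι]
        exact hx'
      obtain ⟨y, rfl⟩ := h6
      exact ⟨y, hx, rfl⟩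
  have h6 : Subsingleton ((An.AnMod.toAb ((An.analytify Y).obj M)).obj.obj
    (op ((imF U.ι).obj ((Opens.map (An.topMap U.ι)).obj W)))) := h4
  rw [h5] at h6
  exact h6

/-- Sections over the empty open. -/
theorem subsingleton_bot {Z : Scheme.{0}} (E : Z.Modules) : Subsingleton Γ(E, ⊥) :=
  ⟨fun s t => Groth.Agent.Fdesc.LocGen.res_ext E (fun _ : Empty => (⊥ : Z.Opens))
    (fun i => i.elim) bot_le (fun i => i.elim)⟩

section main

variable {Z P Q : Scheme.{0}} (k : Z ⟶ P) (q : P ⟶ Q) [IsClosedImmersion k]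

/-- Sections of a direct image under `k` vanish off the image of `k`. -/
theorem subsingleton_sections_of_iso (E : Z.Modules) {N : P.Modules}
    (e : (Scheme.Modules.pushforward k).obj E ≅ N) (V : P.Opens)
    (hV : (V : Set P) ⊆ (Set.range k)ᶜ) : Subsingleton Γ(N, V) := by
  have h1 : k ⁻¹ᵁ V = ⊥ := by
    ext x
    constructor
    · intro hx
      exact absurd ⟨x, rfl⟩ (hV hx)
    · intro hx
      exact hx.elim
  have h2 : Subsingleton Γ(E, k ⁻¹ᵁ V) := by
    rw [h1]
    exact subsingleton_bot E
  have h3 : Subsingleton Γ((Scheme.Modules.pushforward k).obj E, V) := h2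
  refine subsingleton_of_forall_eq 0 fun x => ?_
  have h4 : x = e.hom.app V (e.inv.app V x) := by
    have := congr((Scheme.Modules.Hom.app $(e.inv_hom_id) V) x)
    exact this.symm
  rw [h4, Subsingleton.elim (e.inv.app V x) 0, map_zero]

variable [hq : IsClosedImmersion (k ≫ q)]

include hq in
theorem injOn_base : Set.InjOn q.base (Set.range k) := by
  rintro _ ⟨a, rfl⟩ _ ⟨b, rfl⟩ h
  have h1 : (k ≫ q) a = (k ≫ q) b := h
  rw [(k ≫ q).isClosedEmbedding.injective h1]

/-- Algebraic side. -/
theorem locAcyc_alg [UniversallyClosed q] (E : Z.Modules) {N : P.Modules}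
    (e : (Scheme.Modules.pushforward k).obj E ≅ N) :
    LocAcyc (X := (P : TopCat.{0})) (Y := (Q : TopCat.{0})) q.base ((toAbX P).obj N) :=
  locAcyc_of_support (T := (P : TopCat.{0})) (S := (Q : TopCat.{0})) q.base q.isClosedMap
    (Z := Set.range k) k.isClosedEmbedding.isClosed_range
    (fun V hV => subsingleton_sections_of_iso k E e V hV) (injOn_base k q)

variable [P.Over An.SC] [Q.Over An.SC] [q.IsOver An.SC]

/-- Analytic side. -/
theorem locAcyc_an [UniversallyClosed q] (E : Z.Modules) {N : P.Modules}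
    (e : (Scheme.Modules.pushforward k).obj E ≅ N) :
    LocAcyc (An.topMap q) (An.AnMod.toAb ((An.analytify P).obj N)) := by
  have hcl : IsClosed {x : An.Pts P | x.pt ∈ Set.range k} :=
    (k.isClosedEmbedding.isClosed_range).preimage An.Pts.continuous_pt
  refine locAcyc_of_support (An.topMap q)
    (Groth.Agent.An.H875.ProperMap.isProperMap_map q).isClosedMap (Z := {x : An.Pts P | x.pt ∈ Set.range k})
    hcl ?_ ?_
  · intro V hV
    exact subsingleton_an N ⟨(Set.range k)ᶜ, k.isClosedEmbedding.isClosed_range.isOpen_compl⟩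
      (fun W hW => subsingleton_sections_of_iso k E e W hW) V (fun x hx => hV hx)
  · intro a ha b hb hab
    letI : Z.Over An.SC := ⟨k ≫ (P ↘ An.SC)⟩
    haveI : k.IsOver An.SC := ⟨rfl⟩
    have ha' : a ∈ Set.range (An.Pts.map k) := by
      rw [Groth.Agent.An.H871.Imm.range_map_of_isClosedImmersion k]
      exact ha
    have hb' : b ∈ Set.range (An.Pts.map k) := by
      rw [Groth.Agent.An.H871.Imm.range_map_of_isClosedImmersion k]
      exact hb
    obtain ⟨u, rfl⟩ := ha'
    obtain ⟨v, rfl⟩ := hb'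
    have h1 := congrArg Subtype.val (show An.Pts.map q (An.Pts.map k u) =
      An.Pts.map q (An.Pts.map k v) from hab)
    change (u.1 ≫ k) ≫ q = (v.1 ≫ k) ≫ q at h1
    rw [Category.assoc, Category.assoc, cancel_mono] at h1
    rw [Subtype.ext h1]

end main

end Groth.Agent.Gaga.H977.Supp
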