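import Groth.Agent.Gaga.H977.Van

/-!
# Vanishing of higher cohomology for finite direct sums
-/

set_option autoImplicit false

noncomputable section

open AlgebraicGeometry CategoryTheory CategoryTheory.Limits TopologicalSpace Opposite Topology
  CategoryTheory.Abelian

namespace Groth.Agent.Gaga.H977.Van

open Groth.Agent.Gaga.H977.GagaNat

attribute [local instance] Abelian.hasFiniteBiproducts

section general

universe w v u

variable {C : Type u} [Category.{v} C] [Abelian C] [HasExt.{w} C]

theorem subsingleton_ext_of_retracts {J : Type} [Fintype J] {Z F : C} {G : J → C}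
    (r : ∀ j, F ⟶ G j) (s : ∀ j, G j ⟶ F) (h : ∑ j, r j ≫ s j = 𝟙 F) (n : ℕ)
    (hG : ∀ j, Subsingleton (Ext.{w} Z (G j) n)) : Subsingleton (Ext.{w} Z F n) := by
  refine subsingleton_of_forall_eq 0 fun x => ?_
  have h1 := Ext.comp_mk₀_id x
  rw [← h, Ext.mk₀_sum, Ext.comp_sum] at h1
  rw [← h1]
  refine Finset.sum_eq_zero fun j _ => ?_
  rw [← Ext.mk₀_comp_mk₀, ← Ext.comp_assoc_of_third_deg_zero,
    Subsingleton.elim (x.comp (Ext.mk₀ (r j)) (add_zero n)) 0, Ext.zero_comp]

variable {D : Type*} [Category* D] [Abelian D] (H : D ⥤ C) [H.Additive] {J : Type} [Finite J]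

theorem subsingleton_ext_biproduct (Z : C) (N : J → D) (n : ℕ)
    (hG : ∀ j, Subsingleton (Ext.{w} Z (H.obj (N j)) n)) :
    Subsingleton (Ext.{w} Z (H.obj (⨁ N)) n) := by
  cases nonempty_fintype J
  refine subsingleton_ext_of_retracts (fun j => H.map (biproduct.π N j))
    (fun j => H.map (biproduct.ι N j)) ?_ n hG
  have h1 := congrArg H.map (biproduct.total (f := N))
  rw [Functor.map_sum, CategoryTheory.Functor.map_id] at h1
  simpa only [Functor.map_comp] using h1

end general

variable {X : Scheme.{0}} {J : Type} [Finite J] (N : J → X.Modules)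

/-- Finite direct sums. -/
theorem vanAlg_biproduct (h : ∀ j, VanAlg (N j)) : VanAlg (⨁ N) := fun q =>
  subsingleton_ext_biproduct (toAbX X) _ N (q + 1) fun j => h j q

/-- Finite direct sums. -/
theorem vanAn_biproduct [X.Over An.SC] (h : ∀ j, VanAn (N j)) : VanAn (⨁ N) := fun q =>
  subsingleton_ext_biproduct (An.analytify X ⋙ toAbA X) _ N (q + 1) fun j => h j q

end Groth.Agent.Gaga.H977.Van
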